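import Cfsg.Agent.OddOrderCharacters.Clifford
import Cfsg.Agent.S0157

/-!
# Characters given by a function of pairs of points are constituents of the permutation character (helper139)

`exists_theta` : `χ` irreducible, `χ g = ∑ x, f x (g • x)` for some `f : X → X → ℂ` ⟹ `χ + θ` is the permutation character
of `X` for a character `θ`.
-/

set_option autoImplicit false

open scoped ComplexConjugate
open Cfsg

namespace Cfsg.Agent.H139.HT

open Cfsg.Agent.OddOrderCharacters.Clifford Cfsg.Agent.Characters MulAction

universe u v

/-- a character with sum zero over a subgroup has sum zero over its cosets -/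
theorem sum_coset_zero {G : Type u} [Group G] [Finite G] {χ : G → ℂ} (hχ : IsCharacter G χ) (Q : Subgroup G)
    [Fintype Q] (h : ∑ x : Q, χ x = 0) (y : G) : ∑ x : Q, χ (y * x) = 0 := by
  obtain ⟨n, ρ, rfl⟩ := hχ
  let E : Module.End ℂ (Fin n → ℂ) := ∑ x : Q, ρ (x : G)
  have hE2 : E * E = (Nat.card Q : ℂ) • E := by
    have h1 : ∀ x : Q, ρ (x : G) * E = E := by
      intro x
      simp only [E, Finset.mul_sum]
      refine Fintype.sum_equiv (Equiv.mulLeft x) _ _ fun z => ?_
      rw [Equiv.coe_mulLeft, ← map_mul]
      rfl
    calc E * E = ∑ x : Q, ρ (x : G) * E := by simp only [E, Finset.sum_mul]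
      _ = ∑ _x : Q, E := Finset.sum_congr rfl fun x _ => h1 x
      _ = (Nat.card Q : ℂ) • E := by
        rw [Finset.sum_const, Finset.card_univ, ← Nat.card_eq_fintype_card,
          Nat.cast_smul_eq_nsmul]
  have hc : (Nat.card Q : ℂ) ≠ 0 := Core.card_ne_zero_complex
  have htr : LinearMap.trace ℂ _ E = 0 := by
    simp only [E, map_sum]
    exact h
  let F : Module.End ℂ (Fin n → ℂ) := (Nat.card Q : ℂ)⁻¹ • E
  have hF : IsIdempotentElem F := by
    show F * F = F
    simp only [F]
    rw [smul_mul_smul_comm, hE2, smul_smul]
    congr 1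
    field_simp
  have htrF : LinearMap.trace ℂ _ F = 0 := by
    simp only [F, map_smul, htr, smul_zero]
  have hF0 : F = 0 := by
    have hp := (LinearMap.isProj_range_iff_isIdempotentElem F).2 hF
    have h3 := hp.trace
    rw [htrF] at h3
    have h4 : Module.finrank ℂ (LinearMap.range F) = 0 := by exact_mod_cast h3.symm
    exact LinearMap.range_eq_bot.1 (Submodule.finrank_eq_zero.1 h4)
  have hE0 : E = 0 := by
    have : E = (Nat.card Q : ℂ) • F := by
      simp only [F]
      rw [smul_smul, mul_inv_cancel₀ hc, one_smul]
    rw [this, hF0, smul_zero]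
  have h5 : ∑ x : Q, ρ.character (y * x) = LinearMap.trace ℂ _ (ρ y * E) := by
    simp only [E, Finset.mul_sum, map_sum]
    refine Finset.sum_congr rfl fun x _ => ?_
    rw [← map_mul]
    rfl
  rw [h5, hE0, mul_zero, map_zero]

/-- **constituents** -/
theorem exists_theta {G : Type u} [Group G] [Finite G] {X : Type v} [MulAction G X] [Fintype X] {χ : G → ℂ}
    (hχ : IsIrrCharacter G χ) {f : X → X → ℂ} (h : ∀ g : G, χ g = ∑ x : X, f x (g • x)) :
    ∃ θ : G → ℂ, IsCharacter G θ ∧ ∀ g : G, χ g + θ g = (Nat.card {x : X // g • x = x} : ℂ) := by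
  classical
  let _ := Fintype.ofFinite G
  have hc := Core.isIrr_isCharacter hχ
  set π : G → ℂ := fun g => (Nat.card {x : X // g • x = x} : ℂ) with hπ
  have hπc : IsCharacter G π := S0157.isCharacter_fixedBy X
  have hπv : ∀ g, π g = ∑ x : X, if g • x = x then 1 else 0 := by
    intro g
    rw [hπ]
    simp only [Finset.sum_boole, Nat.card_eq_fintype_card, Fintype.card_subtype]
  -- the sums over the stabilizers
  have hst : ∀ x : X, ∃ n : ℕ, ∑ g : G, (if g • x = x then χ g else 0) = (Nat.card (stabilizer G x) : ℂ) * n := by
    intro x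
    let _ := Fintype.ofFinite (stabilizer G x)
    obtain ⟨n, hn⟩ := Core.classInner_isNat (Core.isCharacter_comp (stabilizer G x).subtype hc)
      (Core.isCharacter_one (G := stabilizer G x))
    refine ⟨n, ?_⟩
    rw [OddOrderCharacters.Clifford.sum_eq_sum_subgroup (stabilizer G x) (fun g => if g • x = x then χ g else 0)
      (fun g hg => if_neg hg), ← hn, Core.classInner_def, ← mul_assoc, mul_inv_cancel₀ Core.card_ne_zero_complex,
      one_mul]
    refine Finset.sum_congr rfl fun g _ => ?_
    rw [if_pos (show (g : G) • x = x from g.2), Pi.one_apply, map_one, mul_one]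
    rfl
  have hne : classInner χ π ≠ 0 := by
    intro h0
    rw [Core.classInner_def] at h0
    have h1 : ∑ g : G, χ g * conj (π g) = 0 :=
      (mul_eq_zero.1 h0).resolve_left (inv_ne_zero Core.card_ne_zero_complex)
    have h2 : ∑ g : G, χ g * conj (π g) = ∑ x : X, ∑ g : G, (if g • x = x then χ g else 0) := by
      rw [Finset.sum_comm]
      refine Finset.sum_congr rfl fun g _ => ?_
      have : conj (π g) = π g := by rw [hπ]; exact Complex.conj_natCast _
      rw [this, hπv, Finset.mul_sum]
      refine Finset.sum_congr rfl fun x _ => ?_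
      rw [mul_ite, mul_one, mul_zero]
    choose n hn using hst
    have h3 : ∑ x : X, Nat.card (stabilizer G x) * n x = 0 := by
      have : ((∑ x : X, Nat.card (stabilizer G x) * n x : ℕ) : ℂ) = 0 := by
        rw [← h1, h2]
        push_cast
        exact Finset.sum_congr rfl fun x _ => (hn x).symm
      exact_mod_cast this
    have h4 : ∀ x : X, ∑ g : G, (if g • x = x then χ g else 0) = 0 := by
      intro x
      have h5 := (Finset.sum_eq_zero_iff.1 h3) x (Finset.mem_univ _)
      rw [hn x, ← Nat.cast_mul, h5, Nat.cast_zero]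
    -- the sums over the cosets of the stabilizers
    have h6 : ∀ x y : X, ∑ g : G, (if g • x = y then χ g else 0) = 0 := by
      intro x y
      by_cases hxy : ∃ g₀ : G, g₀ • x = y
      · obtain ⟨g₀, rfl⟩ := hxy
        let _ := Fintype.ofFinite (stabilizer G x)
        have h7 : ∑ g : stabilizer G x, χ g = 0 := by
          rw [← h4 x, OddOrderCharacters.Clifford.sum_eq_sum_subgroup (stabilizer G x)
            (fun g => if g • x = x then χ g else 0) (fun g hg => if_neg hg)]
          exact Finset.sum_congr rfl fun g _ => (if_pos (show (g : G) • x = x from g.2)).symm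
        rw [← Equiv.sum_comp (Equiv.mulLeft g₀), OddOrderCharacters.Clifford.sum_eq_sum_subgroup (stabilizer G x)
          (fun g => if (Equiv.mulLeft g₀) g • x = g₀ • x then χ ((Equiv.mulLeft g₀) g) else 0) (fun g hg => ?_)]
        · rw [← sum_coset_zero hc _ h7 g₀]
          refine Finset.sum_congr rfl fun g _ => ?_
          rw [if_pos]
          · rfl
          · change (g₀ * (g : G)) • x = g₀ • x
            rw [mul_smul, show (g : G) • x = x from g.2]
        · rw [if_neg]
          change ¬ (g₀ * g) • x = g₀ • x
          rw [mul_smul, smul_left_cancel_iff]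
          exact hg
      · refine Finset.sum_eq_zero fun g _ => if_neg fun hg => hxy ⟨g, hg⟩
    have h8 := Core.classInner_irr_self hχ
    rw [Core.classInner_def] at h8
    have h9 : ∑ g : G, χ g * conj (χ g) = 0 := by
      have e1 : ∀ g : G, χ g * conj (χ g) = ∑ x : X, ∑ y : X, conj (f x y) * (if g • x = y then χ g else 0) := by
        intro g
        have hg := congrArg conj (h g)
        rw [map_sum] at hg
        rw [hg, Finset.mul_sum]
        refine Finset.sum_congr rfl fun x _ => ?_
        rw [Finset.sum_eq_single (g • x)]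
        · rw [if_pos rfl, mul_comm]
        · intro y _ hy
          rw [if_neg (Ne.symm hy), mul_zero]
        · intro h; exact absurd (Finset.mem_univ _) h
      rw [Finset.sum_congr rfl fun g _ => e1 g, Finset.sum_comm]
      refine Finset.sum_eq_zero fun x _ => ?_
      rw [Finset.sum_comm]
      refine Finset.sum_eq_zero fun y _ => ?_
      rw [← Finset.mul_sum, h6, mul_zero]
    rw [h9, mul_zero] at h8
    exact zero_ne_one h8
  have hne' : classInner π χ ≠ 0 := by
    intro h0
    apply hne
    rw [← Core.classInner_conj_symm, h0, map_zero]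
  have h10 := isCharacter_sub_irr hπc hχ hne'
  refine ⟨π - χ, h10, fun g => ?_⟩
  rw [Pi.sub_apply]
  ring

end Cfsg.Agent.H139.HT
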