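import Cfsg.Agent.H139.HT.HcTs
import Cfsg.Agent.H893.Sd.MemIff

/-!
# S4933, linear primes (helper139): irreducibility and membership in the principal block of `R(c ⊗ ψ₀)`

`isIrr_psf`   : `F.hc c (psf F W₀ ψ₁)` is irreducible, its degree;
`isIrr_ts`    : the same for a constituent `ψ₀` of the permutation character on a set of totally singular subspaces;
`sum_hc_of`   : the sum over a normal subset;
`sum_reg_hc`  : the sum over the `p`-regular elements is a positive multiple of the product of the sums of `c` and `ψ₀`;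
`exists_ts`   : **the box**: `c ∈ B₀(GL_k)`, `ψ₀ ∈ B₀(F'.iso)` ⟹ an irreducible `χ ∈ B₀(F.iso)` of degree
  `|Om k| c(1) ψ₀(1)`.
-/

set_option autoImplicit false

open scoped ComplexConjugate
open Cfsg

namespace Cfsg.Agent.H139.HT

open Cfsg.Agent.OddOrderCharacters.Clifford Cfsg.Agent.Characters MulAction Module Cfsg.Agent.H53.HC
open Cfsg.Agent.H749.Two Cfsg.Agent.H477.HC Cfsg.Agent.H477.HC.CForm
open Cfsg.Agent.Blocks.Blau (regPart)

universe u v w

section reg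

theorem reg_iff {S : Type*} {T : Type*} [Group S] [Group T] {p : ℕ} (hp : p.Prime) (f : S →* T)
    [Finite f.ker] (hk : ¬ p ∣ Nat.card f.ker) (g : S) : p ∣ orderOf g ↔ p ∣ orderOf (f g) := by
  constructor
  · intro h
    have h1 : orderOf g ∣ orderOf (f g) * Nat.card f.ker := by
      apply orderOf_dvd_of_pow_eq_one
      have h2 : g ^ orderOf (f g) ∈ f.ker := by
        rw [MonoidHom.mem_ker, map_pow, pow_orderOf_eq_one]
      have h3 := congrArg Subtype.val (pow_card_eq_one' (x := (⟨_, h2⟩ : f.ker)))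
      rw [pow_mul]
      exact h3
    rcases hp.dvd_mul.1 (h.trans h1) with h4 | h4
    · exact h4
    · exact absurd h4 hk
  · exact fun h => h.trans (orderOf_map_dvd f g)

open Classical in
/-- the sum over the `p`-regular elements and surjective homomorphisms with kernel of order prime to `p` -/
theorem sum_reg_comp {S T : Type*} [Group S] [Group T] [Fintype S] [Fintype T] {p : ℕ} (hp : p.Prime) (f : S →* T)
    (hf : Function.Surjective f) (hk : ¬ p ∣ Nat.card f.ker) (χ : T → ℂ) :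
    ∑ g : S, regPart p (χ ∘ f) g = (Nat.card f.ker : ℂ) * ∑ t : T, regPart p χ t := by
  classical
  rw [← sum_comp_hom f hf]
  refine Finset.sum_congr rfl fun g _ => ?_
  by_cases h : p ∣ orderOf g
  · rw [Blocks.Blau.regPart_of_dvd h, Blocks.Blau.regPart_of_dvd ((reg_iff hp f hk g).1 h)]
  · rw [Blocks.Blau.regPart_of_not_dvd h, Blocks.Blau.regPart_of_not_dvd fun h' => h ((reg_iff hp f hk g).2 h')]
    rfl

open Classical in
theorem sum_reg_prod {S T : Type*} [Group S] [Group T] [Fintype S] [Fintype T] {p : ℕ} (hp : p.Prime) (α : S → ℂ)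
    (β : T → ℂ) : ∑ z : S × T, regPart p (fun z : S × T => α z.1 * β z.2) z =
      (∑ s : S, regPart p α s) * ∑ t : T, regPart p β t := by
  classical
  rw [Fintype.sum_prod_type, Finset.sum_mul]
  refine Finset.sum_congr rfl fun s _ => ?_
  rw [Finset.mul_sum]
  refine Finset.sum_congr rfl fun t _ => ?_
  have h0 : p ∣ orderOf ((s, t) : S × T) ↔ p ∣ orderOf s ∨ p ∣ orderOf t := by
    rw [Prod.orderOf]
    constructor
    · intro h
      exact (hp.dvd_mul).1 (h.trans (Nat.lcm_dvd_mul _ _))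
    · rintro (h | h)
      · exact h.trans (Nat.dvd_lcm_left _ _)
      · exact h.trans (Nat.dvd_lcm_right _ _)
  by_cases hs : p ∣ orderOf s
  · rw [Blocks.Blau.regPart_of_dvd (h0.2 (Or.inl hs)), Blocks.Blau.regPart_of_dvd hs, zero_mul]
  · by_cases ht : p ∣ orderOf t
    · rw [Blocks.Blau.regPart_of_dvd (h0.2 (Or.inr ht)), Blocks.Blau.regPart_of_dvd ht, mul_zero]
    · rw [Blocks.Blau.regPart_of_not_dvd (fun h => (h0.1 h).elim hs ht), Blocks.Blau.regPart_of_not_dvd hs,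
        Blocks.Blau.regPart_of_not_dvd ht]

end reg

variable {K : Type u} [Field K] {V : Type v} [AddCommGroup V] [Module K V] {F : CForm K V}
  {X : Type w} [AddCommGroup X] [Module K X] {F' : CForm K X} {j : X →ₗ[K] V} {W₀ : Submodule K V}

/-- **Harish-Chandra induction of `c ⊗ ψ₁`** -/
theorem isIrr_psf [Finite K] [FiniteDimensional K V] [Finite V] {k : ℕ} [Fintype (F.Om k)] {c : GL (Fin k) K → ℂ}
    (hc : IsIrrCharacter _ c) (hcusp : IsCusp c) (hdual : c ∘ F.iota k ≠ c) (hW₀ : W₀ ∈ F.Om k)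
    {ψ₁ : stabW F.iso.subtype W₀ → ℂ} (hψ : IsIrrCharacter _ ψ₁)
    (hT : ∀ g : stabW F.iso.subtype W₀, (g : F.iso) ∈ F.TT W₀ → ψ₁ g = ψ₁ 1)
    (hW : ∀ W' ∈ F.Om k, W₀ ≤ F.perp W' → W₀ ⊓ W' = ⊥ → F.Van c (psf F W₀ ψ₁) W₀ W') :
    IsIrrCharacter F.iso (F.hc c (psf F W₀ ψ₁)) ∧
      F.hc c (psf F W₀ ψ₁) 1 = (Nat.card (F.Om k) : ℂ) * c 1 * ψ₁ 1 := by
  classical
  have := finite_iso F
  let _ := Fintype.ofFinite F.iso
  have hcl := Core.isIrr_isClassFunction hc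
  have hcl1 := Core.isIrr_isClassFunction hψ
  obtain ⟨W₁, hW₁, hopp⟩ := F.exists_opp hW₀
  have hψT : ∀ W ∈ F.Om k, ∀ g ∈ F.TT W, psf F W₀ ψ₁ g W = psf F W₀ ψ₁ 1 W := by
    intro W hWk g hg
    obtain ⟨x, hx⟩ := F.trans_Om hW₀ hWk
    have h1 := TT_conj hx hg
    have h2 : x⁻¹ * 1 * x ∈ stabW F.iso.subtype W₀ := by
      rw [mul_one, inv_mul_cancel]; exact Subgroup.one_mem _
    rw [psf_eq hcl1 hx h1.1, psf_eq hcl1 hx h2, hT _ h1]
    congr 1
    apply Subtype.ext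
    change 1 = x⁻¹ * 1 * x
    group
  have hirr : IsIrrCharacter (stabW F.iso.subtype W₀) (fun g => psf F W₀ ψ₁ g W₀) := by
    have : (fun g : stabW F.iso.subtype W₀ => psf F W₀ ψ₁ g W₀) = ψ₁ := by
      funext g
      exact psf_self hcl1 g
    rw [this]; exact hψ
  have hval1 : ∀ W ∈ F.Om k, psf F W₀ ψ₁ 1 W = ψ₁ 1 := by
    intro W hWk
    obtain ⟨x, hx⟩ := F.trans_Om hW₀ hWk
    have h2 : x⁻¹ * 1 * x ∈ stabW F.iso.subtype W₀ := by
      rw [mul_one, inv_mul_cancel]; exact Subgroup.one_mem _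
    rw [psf_eq hcl1 hx h2]
    congr 1
    apply Subtype.ext
    change x⁻¹ * 1 * x = 1
    group
  exact ⟨F.isIrr_hc hc hcusp hdual (psf_conj hcl1) hψT hW₀ (fun W hWk => F.trans_Om hW₀ hWk)
    (F.isIrr_stab hc hψT hW₀ hW₁ hopp hirr) hW, F.hc_one hcl _ hval1⟩

/-- the sum of a Harish-Chandra induced function over a normal subset -/
theorem sum_hc_of [FiniteDimensional K V] [Finite V] [Fintype F.iso] {k : ℕ} [Fintype (F.Om k)]
    {c : GL (Fin k) K → ℂ} (hcf : IsClassFunction _ c)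
    (hW₀ : W₀ ∈ F.Om k) {ψ₁ : stabW F.iso.subtype W₀ → ℂ} (hcl : IsClassFunction _ ψ₁)
    [Fintype (stabW F.iso.subtype W₀)] (P : F.iso → Prop) [DecidablePred P] (hP : ∀ x g, P (x * g * x⁻¹) ↔ P g) :
    ∑ g : F.iso, (if P g then F.hc c (psf F W₀ ψ₁) g else 0) = (Nat.card (F.Om k) : ℂ) *
      ∑ g : stabW F.iso.subtype W₀, (if P g then flagTerm F.iso.subtype c g W₀ * ψ₁ g else 0) := by
  classical
  have e1 : ∀ W : F.Om k,
      ∑ g : F.iso, (if P g then flagTerm F.iso.subtype c g W.1 * psf F W₀ ψ₁ g W.1 else 0) =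
      ∑ g : stabW F.iso.subtype W₀, (if P g then flagTerm F.iso.subtype c g W₀ * ψ₁ g else 0) := by
    intro W
    obtain ⟨x, hx⟩ := F.trans_Om hW₀ W.2
    rw [← Equiv.sum_comp (MulAut.conj x).toEquiv]
    have e2 : ∀ g : F.iso, (if P ((MulAut.conj x).toEquiv g) then
        flagTerm F.iso.subtype c ((MulAut.conj x).toEquiv g) W.1 * psf F W₀ ψ₁ ((MulAut.conj x).toEquiv g) W.1
          else 0) = if P g then flagTerm F.iso.subtype c g W₀ * psf F W₀ ψ₁ g W₀ else 0 := by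
      intro g
      change (if P (x * g * x⁻¹) then flagTerm F.iso.subtype c (x * g * x⁻¹) W.1 * psf F W₀ ψ₁ (x * g * x⁻¹) W.1
        else 0) = _
      rw [← hx, flagTerm_conj F.iso.subtype hcf, psf_conj hcl]
      simp only [hP]
    rw [Finset.sum_congr rfl fun g _ => e2 g]
    rw [OddOrderCharacters.Clifford.sum_eq_sum_subgroup (stabW F.iso.subtype W₀)
      (fun g => if P g then flagTerm F.iso.subtype c g W₀ * psf F W₀ ψ₁ g W₀ else 0)]
    · refine Finset.sum_congr rfl fun g _ => ?_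
      rw [psf_self hcl]
    · intro g hg
      have : flagTerm F.iso.subtype c g W₀ = 0 := by
        unfold flagTerm
        rw [dif_neg]
        exact hg
      rw [this, zero_mul, ite_self]
  have e3 : ∀ g : F.iso, (if P g then F.hc c (psf F W₀ ψ₁) g else 0) =
      ∑ W : F.Om k, (if P g then flagTerm F.iso.subtype c g W.1 * psf F W₀ ψ₁ g W.1 else 0) := by
    intro g
    by_cases h : P g
    · simp only [if_pos h]
      rfl
    · simp only [if_neg h, Finset.sum_const_zero]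
  rw [Finset.sum_congr rfl fun g _ => e3 g, Finset.sum_comm, Finset.sum_congr rfl fun W _ => e1 W, Finset.sum_const,
    Finset.card_univ, ← Nat.card_eq_fintype_card, nsmul_eq_mul]

/-- the unipotent radical is an `ℓ`-group -/
theorem ker_levi [FiniteDimensional K V] [Finite V] [Finite K] (h : Cmp F F' j W₀) {l : ℕ} [Fact l.Prime]
    [CharP K l] {ρ : stabW F.iso.subtype W₀ →* F'.iso}
    (hρ1 : ∀ (g : stabW F.iso.subtype W₀) y, ((g : F.iso) : V ≃ₗ[K] V) (j y) - j ((ρ g : X ≃ₗ[K] X) y) ∈ W₀) :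
    IsPGroup l ((resHom F.iso.subtype W₀).prod ρ).ker := by
  classical
  rintro ⟨g, hg⟩
  refine ⟨2, ?_⟩
  have hg' := MonoidHom.mem_ker.1 hg
  have h1 : resHom F.iso.subtype W₀ g = 1 := congrArg Prod.fst hg'
  have h2 : ρ g = 1 := congrArg Prod.snd hg'
  have h1' : ∀ w ∈ W₀, ((g : F.iso) : V ≃ₗ[K] V) w = w := by
    intro w hw
    have := congrArg (fun e : W₀ ≃ₗ[K] W₀ => ((e ⟨w, hw⟩ : W₀) : V)) h1
    exact this
  have h3 : ∀ v ∈ F.perp W₀, ((g : F.iso) : V ≃ₗ[K] V) v - v ∈ W₀ := by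
    intro v hv
    obtain ⟨w, hw, x, rfl⟩ := h.j2 v hv
    have h4 := hρ1 g x
    rw [h2] at h4
    rw [map_add, h1' w hw, add_sub_add_left_eq_sub]
    exact h4
  have h4 : ∀ v, ((g : F.iso) : V ≃ₗ[K] V) v - v ∈ F.perp W₀ := by
    intro v w hw
    rw [F.B_sub_left]
    nth_rewrite 1 [← h1' w hw]
    rw [F.iso_B, sub_self]
  let N : V →ₗ[K] V := (((g : F.iso) : V ≃ₗ[K] V) : V →ₗ[K] V) - LinearMap.id
  have hNv : ∀ v, N v = ((g : F.iso) : V ≃ₗ[K] V) v - v := fun v => rfl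
  have hN3 : ∀ v, N (N (N v)) = 0 := by
    intro v
    have h5 : N (N v) ∈ W₀ := h3 _ (h4 v)
    rw [hNv, h1' _ h5, sub_self]
  have hcast : ∀ n : ℕ, l ∣ n → ∀ v : V, n • v = 0 := by
    intro n hn v
    have h6 : (n : K) = 0 := (CharP.cast_eq_zero_iff K l n).2 hn
    have h7 : (n : K) • v = n • v := Nat.cast_smul_eq_nsmul K n v
    rw [← h7, h6, zero_smul]
  have hpp : l.Prime := Fact.out
  have hp2 : 2 ≤ l := hpp.two_le
  apply Subtype.ext
  apply Subtype.ext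
  apply Subtype.ext
  ext v
  change ((((g : F.iso) : V ≃ₗ[K] V)) ^ (l ^ 2)) v = v
  rw [CForm.pow_unip (g := ((g : F.iso) : V ≃ₗ[K] V)) (N := N) (fun v => by rw [hNv]; abel) hN3,
    hcast _ (dvd_pow_self l two_ne_zero),
    hcast _ (hpp.dvd_choose_pow two_ne_zero (by nlinarith)), add_zero, add_zero]

/-- **the sum over the `p`-regular elements** -/
theorem sum_reg_hc [FiniteDimensional K V] [Finite V] [Finite K] [Fintype F.iso] [Fintype F'.iso]
    (h : Cmp F F' j W₀) {l : ℕ} [Fact l.Prime] [CharP K l] {p : ℕ} (hp : p.Prime) (hlp : l ≠ p) {k : ℕ}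
    [Fintype (F.Om k)] [Fintype (GL (Fin k) K)]
    {c : GL (Fin k) K → ℂ} (hcf : IsClassFunction _ c) (hW₀ : W₀ ∈ F.Om k) {ψ₀ : F'.iso → ℂ}
    (hcl : IsClassFunction _ ψ₀) {ρ : stabW F.iso.subtype W₀ →* F'.iso}
    (hρ1 : ∀ (g : stabW F.iso.subtype W₀) y, ((g : F.iso) : V ≃ₗ[K] V) (j y) - j ((ρ g : X ≃ₗ[K] X) y) ∈ W₀)
    (hρ3 : Function.Surjective ((resHom F.iso.subtype W₀).prod ρ)) :
    ∃ N : ℕ, N ≠ 0 ∧ ∑ g : F.iso, regPart p (F.hc c (psf F W₀ (ψ₀ ∘ ρ))) g =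
      (N : ℂ) * ((∑ A : GL (Fin k) K, regPart p c A) * ∑ b : F'.iso, regPart p ψ₀ b) := by
  classical
  have hfW : Finite (W₀ ≃ₗ[K] W₀) := Finite.of_injective (fun e : W₀ ≃ₗ[K] W₀ => (e : W₀ → W₀)) DFunLike.coe_injective
  let _ : Fintype (W₀ ≃ₗ[K] W₀) := Fintype.ofFinite _
  let _ : Fintype (stabW F.iso.subtype W₀) := Fintype.ofFinite _
  let b₀ : Basis (Fin k) K W₀ := finBasisOfFinrankEq K W₀ hW₀.2
  have hker := ker_levi (l := l) h hρ1
  have hk : ¬ p ∣ Nat.card ((resHom F.iso.subtype W₀).prod ρ).ker := by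
    obtain ⟨a, ha⟩ := (IsPGroup.iff_card (p := l)).1 hker
    rw [ha]
    intro h1
    exact hlp ((Nat.prime_dvd_prime_iff_eq hp Fact.out).1 (hp.dvd_of_dvd_pow h1)).symm
  have hcl1 : IsClassFunction _ (ψ₀ ∘ ρ) := fun g x => by
    simp only [Function.comp_apply, map_mul, map_inv]
    exact hcl _ _
  have e1 := sum_hc_of hcf hW₀ hcl1 (fun g : F.iso => ¬ p ∣ orderOf g) (fun x g => by
    rw [Blocks.Blau.orderOf_conj_eq])
  have e2 : ∑ g : F.iso, regPart p (F.hc c (psf F W₀ (ψ₀ ∘ ρ))) g =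
      ∑ g : F.iso, (if ¬ p ∣ orderOf g then F.hc c (psf F W₀ (ψ₀ ∘ ρ)) g else 0) := by
    refine Finset.sum_congr rfl fun g _ => ?_
    by_cases h1 : p ∣ orderOf g
    · rw [Blocks.Blau.regPart_of_dvd h1, if_neg (not_not.2 h1)]
    · rw [Blocks.Blau.regPart_of_not_dvd h1, if_pos h1]
  have e3 : ∑ g : stabW F.iso.subtype W₀,
      (if ¬ p ∣ orderOf (g : F.iso) then flagTerm F.iso.subtype c g W₀ * (ψ₀ ∘ ρ) g else 0) =
      ∑ g : stabW F.iso.subtype W₀, regPart p ((fun z : (W₀ ≃ₗ[K] W₀) × F'.iso => cl c z.1 * ψ₀ z.2) ∘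
        ((resHom F.iso.subtype W₀).prod ρ)) g := by
    refine Finset.sum_congr rfl fun g _ => ?_
    have ho : orderOf (g : F.iso) = orderOf g := Subgroup.orderOf_coe g
    by_cases h1 : p ∣ orderOf g
    · rw [Blocks.Blau.regPart_of_dvd h1, if_neg (by rw [ho]; exact not_not.2 h1)]
    · rw [Blocks.Blau.regPart_of_not_dvd h1, if_pos (by rw [ho]; exact h1), flagTerm_of F.iso.subtype c g.2]
      rfl
  have e4 : ∑ s : (W₀ ≃ₗ[K] W₀), regPart p (cl c) s = ∑ A : GL (Fin k) K, regPart p c A := by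
    refine Fintype.sum_equiv (glE b₀).toEquiv _ _ fun s => ?_
    have ho : orderOf (glE b₀ s) = orderOf s := (glE b₀).orderOf_eq s
    by_cases h1 : p ∣ orderOf s
    · rw [Blocks.Blau.regPart_of_dvd h1, Blocks.Blau.regPart_of_dvd (by
        change p ∣ orderOf (glE b₀ s)
        rw [ho]; exact h1)]
    · rw [Blocks.Blau.regPart_of_not_dvd h1, Blocks.Blau.regPart_of_not_dvd (by
        change ¬ p ∣ orderOf (glE b₀ s)
        rw [ho]; exact h1), cl_eq hcf b₀]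
      rfl
  refine ⟨Nat.card (F.Om k) * Nat.card ((resHom F.iso.subtype W₀).prod ρ).ker, ?_, ?_⟩
  · have : Nonempty (F.Om k) := ⟨⟨W₀, hW₀⟩⟩
    exact mul_ne_zero Nat.card_pos.ne' Nat.card_pos.ne'
  · rw [e2, e1, e3, sum_reg_comp hp _ hρ3 hk, sum_reg_prod hp (cl c) ψ₀, e4]
    push_cast
    ring

open Classical in
/-- **THE BOX.** `c` a cuspidal irreducible character of `GL_k` in the principal block, `c ∘ ι ≠ c`, `ψ₀` an irreducible
character of `F'.iso` in the principal block, a constituent of the permutation character on a set `Y` of totally singular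
subspaces.  Then `R(c ⊗ ψ₀)` is irreducible, in the principal block, of degree `|Om k| c(1) ψ₀(1)`. -/
theorem exists_ts [Finite K] [FiniteDimensional K V] [Finite V] [FiniteDimensional K X] (h : Cmp F F' j W₀)
    {l : ℕ} [Fact l.Prime] [CharP K l] {p : ℕ} [Fact p.Prime] (hlp : l ≠ p) {M : Ideal AlgInt} (hM : IsPModular p M)
    {k : ℕ} (hk : 0 < k) (hW₀ : W₀ ∈ F.Om k) (c : IrrCharacter (GL (Fin k) K)) (hcusp : IsCusp (c : GL (Fin k) K → ℂ))
    (hdual : (c : GL (Fin k) K → ℂ) ∘ F.iota k ≠ c) (hcB : c ∈ principalBlock M (GL (Fin k) K))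
    {Y : Type*} [MulAction F'.iso Y] [Finite Y] (s : Y → Submodule K X) (hs : ∀ y, F'.TS (s y))
    (hfix : ∀ (g : F'.iso) y, (s y).map (F'.iso.subtype g : X →ₗ[K] X) = s y → g • y = y)
    (ψ₀ : IrrCharacter F'.iso) {θ₀ : F'.iso → ℂ} (hθ : IsCharacter _ θ₀)
    (hsum : ∀ g, (ψ₀ : F'.iso → ℂ) g + θ₀ g = (Nat.card {y : Y // g • y = y} : ℂ))
    (hψB : ψ₀ ∈ principalBlock M F'.iso) :
    ∃ χ : IrrCharacter F.iso, χ ∈ principalBlock M F.iso ∧
      charDegree (χ : F.iso → ℂ) = Nat.card (F.Om k) * charDegree (c : GL (Fin k) K → ℂ) *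
        charDegree (ψ₀ : F'.iso → ℂ) ∧
      ∃ ρ : stabW F.iso.subtype W₀ →* F'.iso,
        (∀ (g : stabW F.iso.subtype W₀) y, ((g : F.iso) : V ≃ₗ[K] V) (j y) - j ((ρ g : X ≃ₗ[K] X) y) ∈ W₀) ∧
        (∀ g : stabW F.iso.subtype W₀, (g : F.iso) ∈ F.TT W₀ → ρ g = 1) ∧
        ∀ [Fintype (F.Om k)], (χ : F.iso → ℂ) = F.hc (c : GL (Fin k) K → ℂ) (psf F W₀ ((ψ₀ : F'.iso → ℂ) ∘ ρ)) := by
  classical
  have hp : p.Prime := Fact.out
  have := finite_Om F k
  have hfi := finite_iso F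
  have hjinj : Function.Injective j := by
    rw [injective_iff_map_eq_zero]
    intro y hy
    refine F'.nondeg y fun z => ?_
    rw [← h.jB, hy, F.B_zero_left]
  have hfX : Finite X := Finite.of_injective j hjinj
  have hfi' := finite_iso F'
  let _ := Fintype.ofFinite (F.Om k)
  let _ := Fintype.ofFinite F.iso
  let _ := Fintype.ofFinite F'.iso
  let _ := Fintype.ofFinite (GL (Fin k) K)
  obtain ⟨ρ, hρ1, hρ2, hρ3⟩ := h.exists_rho
  have hsurj : Function.Surjective ρ := fun b => by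
    obtain ⟨g, hg, -⟩ := hρ3 1 b
    exact ⟨g, hg⟩
  have hsurj' : Function.Surjective ((resHom F.iso.subtype W₀).prod ρ) := by
    rintro ⟨a, b⟩
    obtain ⟨g, hg, hg'⟩ := hρ3 a b
    refine ⟨g, Prod.ext ?_ hg⟩
    ext w
    exact hg' w
  have hψ := ψ₀.2
  have hc := c.2
  have hvan : ∀ W' ∈ F.Om k, W₀ ≤ F.perp W' → W₀ ⊓ W' = ⊥ →
      F.Van (c : GL (Fin k) K → ℂ) (psf F W₀ ((ψ₀ : F'.iso → ℂ) ∘ ρ)) W₀ W' := by
    intro W' hW' h1 h2
    rcases Nat.lt_or_ge k 2 with hk2 | hk2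
    · obtain rfl : k = 1 := by omega
      refine van_ts1 h hc (fun h1 => hdual ?_) s hs hfix (Core.isIrr_isCharacter hψ) hθ hsum hρ1 hρ2 hW₀ hW' ‹_› h2
      rw [h1]
      rfl
    · exact van_ts h hk2 (Core.isIrr_isCharacter hc) hcusp s hs hfix (Core.isIrr_isCharacter hψ) hθ hsum hρ1 hρ2 hW₀
        hW' h1 h2
  obtain ⟨hχ, hχ1⟩ := isIrr_psf hc hcusp hdual hW₀ (Core.isIrr_comp ρ hsurj hψ) (fun g hg => by
    rw [Function.comp_apply, Function.comp_apply, hρ2 g hg, map_one]) hvan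
  let χ : IrrCharacter F.iso := ⟨F.hc (c : GL (Fin k) K → ℂ) (psf F W₀ ((ψ₀ : F'.iso → ℂ) ∘ ρ)), hχ⟩
  refine ⟨χ, ?_, ?_, ρ, hρ1, hρ2, fun {inst} => ?_⟩
  · rw [H893.Sd.mem_iff hM]
    obtain ⟨N, hN, e⟩ := sum_reg_hc (l := l) h hp hlp (Core.isIrr_isClassFunction hc) hW₀
      (Core.isIrr_isClassFunction hψ) hρ1 hsurj'
    change ∑ g : F.iso, regPart p (F.hc (c : GL (Fin k) K → ℂ) (psf F W₀ ((ψ₀ : F'.iso → ℂ) ∘ ρ))) g ≠ 0
    rw [e]
    exact mul_ne_zero (Nat.cast_ne_zero.2 hN)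
      (mul_ne_zero ((H893.Sd.mem_iff hM c).1 hcB) ((H893.Sd.mem_iff hM ψ₀).1 hψB))
  · have e1 : (charDegree (χ : F.iso → ℂ) : ℂ) = (χ : F.iso → ℂ) 1 := (Blocks.Basic.irr_one_eq_charDegree χ.2).symm
    have e2 : (charDegree (c : GL (Fin k) K → ℂ) : ℂ) = (c : GL (Fin k) K → ℂ) 1 :=
      (Blocks.Basic.irr_one_eq_charDegree c.2).symm
    have e3 : (charDegree (ψ₀ : F'.iso → ℂ) : ℂ) = (ψ₀ : F'.iso → ℂ) 1 := (Blocks.Basic.irr_one_eq_charDegree ψ₀.2).symm
    have e4 : (χ : F.iso → ℂ) 1 = (Nat.card (F.Om k) : ℂ) * (c : GL (Fin k) K → ℂ) 1 * (ψ₀ : F'.iso → ℂ) 1 := by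
      change F.hc (c : GL (Fin k) K → ℂ) (psf F W₀ ((ψ₀ : F'.iso → ℂ) ∘ ρ)) 1 = _
      rw [hχ1, Function.comp_apply, map_one]
    have : ((charDegree (χ : F.iso → ℂ) : ℕ) : ℂ) = ((Nat.card (F.Om k) * charDegree (c : GL (Fin k) K → ℂ) *
        charDegree (ψ₀ : F'.iso → ℂ) : ℕ) : ℂ) := by
      push_cast
      rw [e1, e2, e3, e4]
    exact_mod_cast this
  · have : inst = Fintype.ofFinite (F.Om k) := Subsingleton.elim _ _
    rw [this]

end Cfsg.Agent.H139.HT
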