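import Cfsg.Agent.H477.HC.HcPt
import Cfsg.Agent.H646.RegInner

/-!
# S4933, linear primes (helper139): Harish-Chandra induction with a constituent of a permutation character on totally
singular subspaces

`exists_DU`, `exists_LU` : root and Levi elements preserving a totally singular `U ≥ W'`;
`van_ts`, `van_ts1` : the vanishing condition for an orthogonal disjoint pair, for `ψ₀` a constituent of the permutation
character on a set of totally singular subspaces of `X` (of any dimension);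
`isIrr_ts` : `R(c ⊗ ψ₀)` is irreducible.
`sum_hc` : the sum of `R(c ⊗ ψ₀)` over the `p`-regular elements is a nonzero multiple of the product of the two sums.
-/

set_option autoImplicit false

open scoped ComplexConjugate
open Cfsg

namespace Cfsg.Agent.H139.HT

open Cfsg.Agent.OddOrderCharacters.Clifford Cfsg.Agent.Characters MulAction Module Cfsg.Agent.H53.HC
open Cfsg.Agent.H749.Two Cfsg.Agent.H477.HC Cfsg.Agent.H477.HC.CForm

universe u v w

variable {K : Type u} [Field K] {V : Type v} [AddCommGroup V] [Module K V] {F : CForm K V}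
  {X : Type w} [AddCommGroup X] [Module K X] {F' : CForm K X} {j : X →ₗ[K] V} {W₀ : Submodule K V}

/-- a line in a space of dimension at least two -/
theorem exists_line {k : ℕ} (hk : 2 ≤ k) (hW : finrank K W₀ = k) : ∃ D ≤ W₀, D ≠ ⊥ ∧ D ≠ W₀ := by
  obtain ⟨x, hx, hx0⟩ : ∃ x ∈ W₀, x ≠ 0 := by
    by_contra h
    push Not at h
    have : W₀ = ⊥ := (Submodule.eq_bot_iff _).2 h
    rw [this, finrank_bot] at hW
    omega
  refine ⟨Submodule.span K {x}, (Submodule.span_singleton_le_iff_mem _ _).2 hx,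
    fun h => hx0 (Submodule.span_singleton_eq_bot.1 h), fun h => ?_⟩
  rw [← h, finrank_span_singleton hx0] at hW
  omega

/-- the root elements preserving `U` -/
theorem exists_DU [FiniteDimensional K V] {k : ℕ} (hk : 2 ≤ k) (hW₀ : W₀ ∈ F.Om k) {W' : Submodule K V}
    (hperp : W₀ ≤ F.perp W') (h0 : W₀ ⊓ W' = ⊥) {U : Submodule K V} (hU : F.TS U) (hWU : W' ≤ U) :
    ∃ D ≤ W₀, D ≠ ⊥ ∧ D ≠ W₀ ∧ ∀ x ∈ D, ∀ f : W₀ →ₗ[K] K, (∀ w : W₀, (w : V) ∈ D → f w = 0) →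
      ∃ g ∈ F.TT W₀ ⊓ F.fixW W', (∀ u ∈ U, (g : V ≃ₗ[K] V) u ∈ U) ∧
        ∀ w : W₀, (g : V ≃ₗ[K] V) w = w + f w • x := by
  classical
  obtain ⟨D₀, hD₀, hD₀0, hD₀1⟩ := exists_line hk hW₀.2
  by_cases h1 : W₀ ⊓ F.perp U = W₀
  · have hWU' : W₀ ≤ F.perp U := inf_eq_left.1 h1
    by_cases h2 : W₀ ≤ U
    · -- `W₀ ≤ U`
      refine ⟨D₀, hD₀, hD₀0, hD₀1, fun x hx f hf => ?_⟩
      by_cases hf0 : f = 0
      · refine ⟨1, Subgroup.one_mem _, fun u hu => hu, fun w => ?_⟩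
        rw [hf0, LinearMap.zero_apply, zero_smul, add_zero]
        rfl
      have hxW := hD₀ hx
      obtain ⟨b, hb, hb1, hb2⟩ := exists_sing_dual hW₀.1 hperp f (fun w hw => by
        have : (w : V) ∈ W₀ ⊓ W' := ⟨w.2, hw⟩
        rw [h0] at this
        have e : w = 0 := Subtype.ext ((Submodule.mem_bot K).1 this)
        rw [e, map_zero]) hf0
      have hxb : F.B x b = 0 := by rw [← hb1 ⟨x, hxW⟩]; exact hf ⟨x, hxW⟩ hx
      obtain ⟨g, hg⟩ := F.exists_root (hW₀.1.sing hxW) hb hxb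
      refine ⟨g, ⟨F.mem_TT_of hW₀.1 fun v hv => ?_, fun w' hw' => ?_⟩, fun u hu => ?_, fun w => ?_⟩
      · rw [hg, hv x hxW]
        have : v + F.B v b • x - (F.ε⁻¹ * 0) • b - v = F.B v b • x := by module
        rw [this]
        exact W₀.smul_mem _ hxW
      · rw [hg, hb2 w' hw', F.B_eq_zero (hperp hxW w' hw')]
        module
      · rw [hg, hU.2 u hu x (h2 hxW)]
        have : u + F.B u b • x - (F.ε⁻¹ * 0) • b = u + F.B u b • x := by module
        rw [this]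
        exact U.add_mem hu (U.smul_mem _ (h2 hxW))
      · rw [hg, hb1, hW₀.1.2 w w.2 x hxW]
        module
    · -- `D = W₀ ∩ U` or a line
      obtain ⟨D, hD, hD0, hD1, hle⟩ : ∃ D ≤ W₀, D ≠ ⊥ ∧ D ≠ W₀ ∧ W₀ ⊓ U ≤ D := by
        by_cases h3 : W₀ ⊓ U = ⊥
        · exact ⟨D₀, hD₀, hD₀0, hD₀1, by rw [h3]; exact bot_le⟩
        · exact ⟨W₀ ⊓ U, inf_le_left, h3, fun h => h2 (inf_eq_left.1 h), le_rfl⟩
      refine ⟨D, hD, hD0, hD1, fun x hx f hf => ?_⟩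
      have hxW := hD hx
      obtain ⟨g, hg1, -, hg3, hg4⟩ := exists_root_perp hW₀.1 hU hWU' hxW f
        (fun w hw => hf w (hle ⟨w.2, hw⟩)) (hf ⟨x, hxW⟩ hx)
      exact ⟨g, ⟨hg1, fun w hw => hg3 w (hWU hw)⟩, fun u hu => by rw [hg3 u hu]; exact hu, hg4⟩
  · obtain ⟨D, hD, hD0, hD1, hle⟩ : ∃ D ≤ W₀, D ≠ ⊥ ∧ D ≠ W₀ ∧ W₀ ⊓ F.perp U ≤ D := by
      by_cases h3 : W₀ ⊓ F.perp U = ⊥
      · exact ⟨D₀, hD₀, hD₀0, hD₀1, by rw [h3]; exact bot_le⟩
      · exact ⟨W₀ ⊓ F.perp U, inf_le_left, h3, h1, le_rfl⟩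
    refine ⟨D, hD, hD0, hD1, fun x hx f hf => ?_⟩
    have hxW := hD hx
    obtain ⟨b, hb, hb'⟩ := F.exists_pair W₀ U f (fun w hw => hf w (hle ⟨w.2, fun y hy => hw y hy⟩))
    have hxb : F.B x b = 0 := by rw [← hb' ⟨x, hxW⟩]; exact hf ⟨x, hxW⟩ hx
    obtain ⟨g, hg⟩ := F.exists_root (hW₀.1.sing hxW) (hU.sing hb) hxb
    refine ⟨g, ⟨F.mem_TT_of hW₀.1 fun v hv => ?_, fun w' hw' => ?_⟩, fun u hu => ?_, fun w => ?_⟩
    · rw [hg, hv x hxW]
      have : v + F.B v b • x - (F.ε⁻¹ * 0) • b - v = F.B v b • x := by module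
      rw [this]
      exact W₀.smul_mem _ hxW
    · rw [hg, hU.2 w' (hWU hw') b hb, F.B_eq_zero (hperp hxW w' hw')]
      module
    · rw [hg, hU.2 u hu b hb]
      have : u + (0 : K) • x - (F.ε⁻¹ * F.B u x) • b = u - (F.ε⁻¹ * F.B u x) • b := by module
      rw [this]
      exact U.sub_mem hu (U.smul_mem _ hb)
    · rw [hg, hb', hW₀.1.2 w w.2 x hxW]
      module

/-- the Levi elements preserving `U`, `k = 1` -/
theorem exists_LU [FiniteDimensional K V] (hW₀ : W₀ ∈ F.Om 1) {W' : Submodule K V}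
    (hperp : W₀ ≤ F.perp W') (h0 : W₀ ⊓ W' = ⊥) {U : Submodule K V} (hU : F.TS U) (hWU : W' ≤ U)
    (a : W₀ ≃ₗ[K] W₀) :
    ∃ g ∈ F.TT W₀ ⊓ F.fixW W', (∀ u ∈ U, (g : V ≃ₗ[K] V) u ∈ U) ∧ ∀ w : W₀, (g : V ≃ₗ[K] V) w = a w := by
  classical
  obtain ⟨e₀, he₀, he00⟩ : ∃ x ∈ W₀, x ≠ 0 := by
    by_contra h
    push Not at h
    have : W₀ = ⊥ := (Submodule.eq_bot_iff _).2 h
    have h2 := hW₀.2
    rw [this, finrank_bot] at h2
    omega
  have hspan : ∀ w ∈ W₀, ∃ t : K, w = t • e₀ := by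
    intro w hw
    have h1 := (finrank_eq_one_iff_of_nonzero' (⟨e₀, he₀⟩ : W₀) (fun h => he00 (congrArg Subtype.val h))).1 hW₀.2 ⟨w, hw⟩
    obtain ⟨t, ht⟩ := h1
    exact ⟨t, (congrArg Subtype.val ht).symm⟩
  -- the Levi element attached to a singular vector `b` not orthogonal to `e₀`
  have key : ∀ b : V, F.Sing b → F.B e₀ b ≠ 0 → (∀ w ∈ W', F.B w b = 0) →
      ∃ g ∈ F.TT W₀ ⊓ F.fixW W', (∀ t : K, (g : V ≃ₗ[K] V) (t • b) ∈ Submodule.span K {b}) ∧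
        (∀ v, F.B v e₀ = 0 → F.B v b = 0 → (g : V ≃ₗ[K] V) v = v) ∧ ∀ w : W₀, (g : V ≃ₗ[K] V) w = a w := by
    intro b hb hb0 hbW
    have hTb := F.TS_span_singleton hb
    obtain ⟨g, hg1, hg2, hg3, hg4⟩ := F.exists_levi hW₀.1 hTb
      (fun w hw hw' => by
        obtain ⟨t, rfl⟩ := hspan w hw
        have := hw' b (Submodule.mem_span_singleton_self b)
        rw [F.B_smul_left] at this
        rw [(mul_eq_zero.1 this).resolve_right hb0, zero_smul])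
      (fun w' hw' hw => by
        obtain ⟨t, rfl⟩ := Submodule.mem_span_singleton.1 hw'
        have := hw e₀ he₀
        rw [F.B_smul_right] at this
        have h1 := (mul_eq_zero.1 this).resolve_right hb0
        have h2 := congrArg F.σ h1
        rw [F.σσ, map_zero] at h2
        rw [h2, zero_smul]) a
    refine ⟨g, ⟨hg4.1, fun w hw => hg3 w (fun w' hw' => F.B_eq_zero (hperp hw' w hw)) fun w' hw' => ?_⟩,
      fun t => hg2 _ (Submodule.smul_mem _ _ (Submodule.mem_span_singleton_self b)),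
      fun v hv hv' => hg3 v (fun w hw => ?_) (fun w hw => ?_), hg1⟩
    · obtain ⟨t, rfl⟩ := Submodule.mem_span_singleton.1 hw'
      rw [F.B_smul_right, hbW w hw, mul_zero]
    · obtain ⟨t, rfl⟩ := hspan w hw
      rw [F.B_smul_right, hv, mul_zero]
    · obtain ⟨t, rfl⟩ := Submodule.mem_span_singleton.1 hw
      rw [F.B_smul_right, hv', mul_zero]
  by_cases hc : ∀ u ∈ U, F.B u e₀ = 0
  · -- a functional on `W₀` with value `≠ 0` at `e₀`
    obtain ⟨f, hf⟩ : ∃ f : W₀ →ₗ[K] K, f ⟨e₀, he₀⟩ ≠ 0 := by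
      by_contra h
      push Not at h
      have h1 : (⟨e₀, he₀⟩ : W₀) = 0 := (Module.forall_dual_apply_eq_zero_iff K _).1 h
      exact he00 (congrArg Subtype.val h1)
    have hf0 : f ≠ 0 := by
      rintro rfl
      exact hf rfl
    by_cases hI : e₀ ∈ U
    · obtain ⟨b, hb1, hb2, hb3⟩ := exists_sing_dual hW₀.1 hperp f (fun w hw => by
        have : (w : V) ∈ W₀ ⊓ W' := ⟨w.2, hw⟩
        rw [h0] at this
        have e : w = 0 := Subtype.ext ((Submodule.mem_bot K).1 this)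
        rw [e, map_zero]) hf0
      have hb0 : F.B e₀ b ≠ 0 := by
        have h := hf
        rw [hb2 ⟨e₀, he₀⟩] at h
        exact h
      obtain ⟨g, hg1, hg2, hg3, hg4⟩ := key b hb1 hb0 hb3
      refine ⟨g, hg1, fun u hu => ?_, hg4⟩
      have hge : (g : V ≃ₗ[K] V) e₀ ∈ U := by
        have h1 := hg4 ⟨e₀, he₀⟩
        change (g : V ≃ₗ[K] V) e₀ = _ at h1
        obtain ⟨s, hs⟩ := hspan _ (a ⟨e₀, he₀⟩).2
        rw [h1, hs]
        exact U.smul_mem _ hI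
      have hr : (g : V ≃ₗ[K] V) (u - (F.B u b / F.B e₀ b) • e₀) = u - (F.B u b / F.B e₀ b) • e₀ := by
        refine hg3 _ ?_ ?_
        · rw [F.B_sub_left, F.B_smul_left, hc u hu, hc e₀ hI]
          ring
        · rw [F.B_sub_left, F.B_smul_left, div_mul_cancel₀ _ hb0, sub_self]
      have hdec : (g : V ≃ₗ[K] V) u = (g : V ≃ₗ[K] V) (u - (F.B u b / F.B e₀ b) • e₀) +
          (F.B u b / F.B e₀ b) • (g : V ≃ₗ[K] V) e₀ := by
        rw [map_sub, map_smul, sub_add_cancel]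
      rw [hdec, hr]
      exact U.add_mem (U.sub_mem hu (U.smul_mem _ hI)) (U.smul_mem _ hge)
    · have hpU : W₀ ≤ F.perp U := by
        intro w hw y hy
        obtain ⟨t, rfl⟩ := hspan w hw
        rw [F.B_smul_left, F.B_eq_zero (hc y hy), mul_zero]
      obtain ⟨b, hb1, hb2, hb3⟩ := exists_sing_dual hW₀.1 hpU f (fun w hw => by
        obtain ⟨t, ht⟩ := hspan w w.2
        by_cases ht0 : t = 0
        · have e : w = 0 := Subtype.ext (by rw [ht, ht0, zero_smul]; rfl)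
          rw [e, map_zero]
        · exfalso
          apply hI
          have : e₀ = t⁻¹ • (w : V) := by rw [ht, smul_smul, inv_mul_cancel₀ ht0, one_smul]
          rw [this]
          exact Submodule.smul_mem _ _ hw) hf0
      have hb0 : F.B e₀ b ≠ 0 := by
        have h := hf
        rw [hb2 ⟨e₀, he₀⟩] at h
        exact h
      obtain ⟨g, hg1, hg2, hg3, hg4⟩ := key b hb1 hb0 (fun w hw => hb3 w (hWU hw))
      exact ⟨g, hg1, fun u hu => by rw [hg3 u (hc u hu) (hb3 u hu)]; exact hu, hg4⟩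
  · push Not at hc
    obtain ⟨b, hb, hb0⟩ := hc
    have hb0' : F.B e₀ b ≠ 0 := fun h => hb0 (F.B_eq_zero h)
    obtain ⟨g, hg1, hg2, hg3, hg4⟩ := key b (hU.sing hb) hb0' (fun w hw => hU.2 w (hWU hw) b hb)
    refine ⟨g, hg1, fun u hu => ?_, hg4⟩
    have hbU : Submodule.span K {b} ≤ U := (Submodule.span_singleton_le_iff_mem _ _).2 hb
    have hr : (g : V ≃ₗ[K] V) (u - (F.B u e₀ / F.B b e₀) • b) = u - (F.B u e₀ / F.B b e₀) • b := by
      refine hg3 _ ?_ ?_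
      · rw [F.B_sub_left, F.B_smul_left, div_mul_cancel₀ _ hb0, sub_self]
      · rw [F.B_sub_left, F.B_smul_left, hU.2 u hu b hb, hU.2 b hb b hb]
        ring
    have hdec : (g : V ≃ₗ[K] V) u = (g : V ≃ₗ[K] V) (u - (F.B u e₀ / F.B b e₀) • b) +
        (g : V ≃ₗ[K] V) ((F.B u e₀ / F.B b e₀) • b) := by
      rw [← map_add, sub_add_cancel]
    rw [hdec, hr]
    exact U.add_mem (U.sub_mem hu (U.smul_mem _ hb)) (hbU (hg2 _))

/-- an element stabilising `x (W₀ + j y)` stabilises `y` -/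
theorem sub_fix [FiniteDimensional K V] [FiniteDimensional K X] (h : Cmp F F' j W₀)
    {ρ : stabW F.iso.subtype W₀ →* F'.iso}
    (hρ1 : ∀ (g : stabW F.iso.subtype W₀) y, ((g : F.iso) : V ≃ₗ[K] V) (j y) - j ((ρ g : X ≃ₗ[K] X) y) ∈ W₀)
    {x l : F.iso} (hl : x⁻¹ * l * x ∈ stabW F.iso.subtype W₀) {y : Submodule K X}
    (hu : ∀ u ∈ (W₀ ⊔ y.map j).map (F.iso.subtype x : V →ₗ[K] V),
      (l : V ≃ₗ[K] V) u ∈ (W₀ ⊔ y.map j).map (F.iso.subtype x : V →ₗ[K] V)) :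
    y.map (F'.iso.subtype (ρ ⟨_, hl⟩) : X →ₗ[K] X) = y := by
  classical
  obtain ⟨r, hr, hrj, hrW⟩ := h.exists_proj
  refine map_eq_of_le F'.iso.subtype fun v hv => ?_
  obtain ⟨z, hz, e⟩ := hu ((x : V ≃ₗ[K] V) (j v)) ⟨j v, Submodule.mem_sup_right ⟨v, hv, rfl⟩, rfl⟩
  obtain ⟨w₁, hw₁, y₁, ⟨v', hv', rfl⟩, rfl⟩ := Submodule.mem_sup.1 hz
  have h1 := hρ1 ⟨_, hl⟩ v
  have h3 : (((⟨_, hl⟩ : stabW F.iso.subtype W₀) : F.iso) : V ≃ₗ[K] V) (j v) = w₁ + j v' := by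
    change ((x⁻¹ : F.iso) : V ≃ₗ[K] V) ((l : V ≃ₗ[K] V) ((x : V ≃ₗ[K] V) (j v))) = _
    rw [← e]
    exact (x : V ≃ₗ[K] V).symm_apply_apply _
  have h4 := hrW _ h1
  rw [h3, map_sub, map_add, hrW _ hw₁, hrj, hrj, zero_add, sub_eq_zero] at h4
  change (ρ ⟨_, hl⟩ : X ≃ₗ[K] X) v ∈ y
  rw [← h4]
  exact hv'

theorem TS_jmap [FiniteDimensional K V] (h : Cmp F F' j W₀) {y : Submodule K X} (hy : F'.TS y) (x : F.iso) :
    F.TS ((W₀ ⊔ y.map j).map (F.iso.subtype x : V →ₗ[K] V)) := by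
  have h1 : F.TS (y.map j) := by
    refine ⟨?_, ?_⟩
    · rintro _ ⟨a, ha, rfl⟩
      rw [h.jQ]; exact hy.1 a ha
    · rintro _ ⟨a, ha, rfl⟩ _ ⟨b, hb, rfl⟩
      rw [h.jB]; exact hy.2 a ha b hb
  have h2 : W₀ ≤ F.perp (y.map j) := by
    rintro w hw _ ⟨a, -, rfl⟩
    exact F.B_eq_zero (h.j1 a w hw)
  exact (F.TS_sup h.ts h1 h2).map x

open Classical in
/-- **the vanishing condition for totally singular subspaces**, `k ≥ 2` -/
theorem van_ts [FiniteDimensional K V] [FiniteDimensional K X] [Finite V] [Finite K] (h : Cmp F F' j W₀) {k : ℕ}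
    (hk : 2 ≤ k) {c : GL (Fin k) K → ℂ}
    (hc : IsCharacter _ c) (hcusp : IsCusp c) {Y : Type*} [MulAction F'.iso Y] [Finite Y] (s : Y → Submodule K X)
    (hs : ∀ y, F'.TS (s y))
    (hfix : ∀ (g : F'.iso) y, (s y).map (F'.iso.subtype g : X →ₗ[K] X) = s y → g • y = y)
    {ψ₀ θ₀ : F'.iso → ℂ} (hψ : IsCharacter _ ψ₀) (hθ : IsCharacter _ θ₀)
    (hsum : ∀ g, ψ₀ g + θ₀ g = (Nat.card {y : Y // g • y = y} : ℂ))
    {ρ : stabW F.iso.subtype W₀ →* F'.iso}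
    (hρ1 : ∀ (g : stabW F.iso.subtype W₀) y, ((g : F.iso) : V ≃ₗ[K] V) (j y) - j ((ρ g : X ≃ₗ[K] X) y) ∈ W₀)
    (hρ2 : ∀ g : stabW F.iso.subtype W₀, (g : F.iso) ∈ F.TT W₀ → ρ g = 1)
    (hW₀ : W₀ ∈ F.Om k) {W' : Submodule K V} (hW' : W' ∈ F.Om k) (hperp : W₀ ≤ F.perp W') (h0 : W₀ ⊓ W' = ⊥) :
    F.Van c (psf F W₀ (ψ₀ ∘ ρ)) W₀ W' := by
  classical
  obtain ⟨x, hx⟩ := F.trans_Om hW₀ hW'
  refine van_perm hc hψ hθ hsum hρ2 hW₀ hW' hx fun φ hφ => ?_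
  intro _ y
  let L : Subgroup F.iso := F.TT W₀ ⊓ F.fixW W'
  let _ : Fintype ((stabilizer F'.iso y).comap φ) := Fintype.ofFinite _
  rw [sum_ite_sub φ y (fun l : L => flagTerm F.iso.subtype c (l : F.iso) W₀)]
  let H : Subgroup F.iso := ((stabilizer F'.iso y).comap φ).map L.subtype
  have : Finite F.iso := finite_iso F
  let _ : Fintype H := Fintype.ofFinite _
  have e1 : ∑ s : (stabilizer F'.iso y).comap φ, flagTerm F.iso.subtype c ((s : L) : F.iso) W₀ =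
      ∑ l : H, flagTerm F.iso.subtype c l W₀ :=
    Fintype.sum_equiv (((stabilizer F'.iso y).comap φ).equivMapOfInjective L.subtype
      L.subtype_injective).toEquiv _ _ fun s => rfl
  rw [e1]
  have hU := TS_jmap h (hs y) x
  have hWU : W' ≤ (W₀ ⊔ (s y).map j).map (F.iso.subtype x : V →ₗ[K] V) := by
    rw [← hx]
    exact Submodule.map_mono le_sup_left
  obtain ⟨D, hD, hD0, hD1, hgen⟩ := exists_DU hk hW₀ hperp h0 hU hWU
  refine sum_cusp hc hcusp hW₀.2 D hD hD0 hD1 H ?_ fun z hz f hf => ?_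
  · rintro _ ⟨t, -, rfl⟩
    exact t.2.1.1
  · obtain ⟨g, hg, hgu, hgw⟩ := hgen z hz f hf
    refine ⟨g, ⟨⟨g, hg⟩, ?_, rfl⟩, hgw⟩
    change φ ⟨g, hg⟩ • y = y
    obtain ⟨hl, e⟩ := hφ ⟨g, hg⟩
    rw [e]
    exact hfix _ _ (sub_fix h hρ1 hl hgu)

open Classical in
/-- **the vanishing condition for totally singular subspaces**, `k = 1`, `c ≠ 1` -/
theorem van_ts1 [FiniteDimensional K V] [FiniteDimensional K X] [Finite V] [Finite K] (h : Cmp F F' j W₀)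
    {c : GL (Fin 1) K → ℂ} (hc : IsIrrCharacter _ c) (hc1 : c ≠ 1) {Y : Type*} [MulAction F'.iso Y] [Finite Y]
    (s : Y → Submodule K X) (hs : ∀ y, F'.TS (s y))
    (hfix : ∀ (g : F'.iso) y, (s y).map (F'.iso.subtype g : X →ₗ[K] X) = s y → g • y = y)
    {ψ₀ θ₀ : F'.iso → ℂ} (hψ : IsCharacter _ ψ₀) (hθ : IsCharacter _ θ₀)
    (hsum : ∀ g, ψ₀ g + θ₀ g = (Nat.card {y : Y // g • y = y} : ℂ))
    {ρ : stabW F.iso.subtype W₀ →* F'.iso}
    (hρ1 : ∀ (g : stabW F.iso.subtype W₀) y, ((g : F.iso) : V ≃ₗ[K] V) (j y) - j ((ρ g : X ≃ₗ[K] X) y) ∈ W₀)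
    (hρ2 : ∀ g : stabW F.iso.subtype W₀, (g : F.iso) ∈ F.TT W₀ → ρ g = 1)
    (hW₀ : W₀ ∈ F.Om 1) {W' : Submodule K V} (hW' : W' ∈ F.Om 1) (hperp : W₀ ≤ F.perp W') (h0 : W₀ ⊓ W' = ⊥) :
    F.Van c (psf F W₀ (ψ₀ ∘ ρ)) W₀ W' := by
  classical
  have hcc := Core.isIrr_isCharacter hc
  have hcf := Core.isIrr_isClassFunction hc
  obtain ⟨x, hx⟩ := F.trans_Om hW₀ hW'
  refine van_perm hcc hψ hθ hsum hρ2 hW₀ hW' hx fun φ hφ => ?_
  intro _ y
  let L : Subgroup F.iso := F.TT W₀ ⊓ F.fixW W'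
  let _ : Fintype ((stabilizer F'.iso y).comap φ) := Fintype.ofFinite _
  rw [sum_ite_sub φ y (fun l : L => flagTerm F.iso.subtype c (l : F.iso) W₀)]
  have hU := TS_jmap h (hs y) x
  have hWU : W' ≤ (W₀ ⊔ (s y).map j).map (F.iso.subtype x : V →ₗ[K] V) := by
    rw [← hx]
    exact Submodule.map_mono le_sup_left
  let b₀ : Basis (Fin 1) K W₀ := finBasisOfFinrankEq K W₀ hW₀.2
  let _ : Fintype (GL (Fin 1) K) := Fintype.ofFinite _
  let S : Subgroup L := (stabilizer F'.iso y).comap φ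
  let f : S →* GL (Fin 1) K :=
    (glE b₀).toMonoidHom.comp ((resHom F.iso.subtype W₀).comp
      ((Subgroup.inclusion (show L ≤ stabW F.iso.subtype W₀ from fun l hl => hl.1.1)).comp S.subtype))
  have hf : Function.Surjective f := by
    intro A
    obtain ⟨a, rfl⟩ := (glE b₀).surjective A
    obtain ⟨g, hg, hgu, hgw⟩ := exists_LU hW₀ hperp h0 hU hWU a
    refine ⟨⟨⟨g, hg⟩, ?_⟩, ?_⟩
    · change φ ⟨g, hg⟩ • y = y
      obtain ⟨hl, e⟩ := hφ ⟨g, hg⟩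
      rw [e]
      exact hfix _ _ (sub_fix h hρ1 hl hgu)
    · change glE b₀ (res (F.iso.subtype g) W₀ _) = glE b₀ a
      congr 1
      ext w
      exact hgw w
  have e1 : ∀ t : S, flagTerm F.iso.subtype c ((t : L) : F.iso) W₀ = c (f t) := by
    intro t
    rw [flagTerm_of F.iso.subtype c (t : L).2.1.1, cl_eq hcf b₀]
    rfl
  rw [Finset.sum_congr rfl fun t _ => e1 t, sum_comp_hom f hf c]
  have h4 := Core.classInner_irr_ne hc Core.isIrr_one hc1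
  rw [Core.classInner_def] at h4
  rcases mul_eq_zero.1 h4 with h5 | h5
  · exact absurd h5 (inv_ne_zero card_ne_zero')
  · have : ∑ A, c A = 0 := by
      rw [← h5]
      refine Finset.sum_congr rfl fun A _ => ?_
      rw [Pi.one_apply, map_one, mul_one]
    rw [this, mul_zero]

end Cfsg.Agent.H139.HT
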