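import Cfsg.Agent.H477.HC.HcPt

/-!
# S4933 (helper139): invariance of Harish-Chandra induced characters under semisimilarities

`SSim F γ τ` : `γ : V ≃+ V` is a semisimilarity of the form `F` with the field automorphism `τ`;
`gmap` : the image of a subspace;
`Inter γ g g'` : `g' = γ g γ⁻¹`;
`hc_inv` : if `c` is `τ`-invariant and `ψ₀` is invariant under the semisimilarities of `X` with the field automorphism `τ`,
then `F.hc c (psf F W₀ (ψ₀ ∘ ρ)) g' = F.hc c (psf F W₀ (ψ₀ ∘ ρ)) g` for `g' = γ g γ⁻¹`.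
-/

set_option autoImplicit false

open scoped ComplexConjugate
open Cfsg

namespace Cfsg.Agent.H139.HT

open Cfsg.Agent.OddOrderCharacters.Clifford Cfsg.Agent.Characters MulAction Module Cfsg.Agent.H53.HC
open Cfsg.Agent.H749.Two Cfsg.Agent.H477.HC Cfsg.Agent.H477.HC.CForm

universe u v w

variable {K : Type u} [Field K] {V : Type v} [AddCommGroup V] [Module K V]

/-- the image of a subspace under a semilinear automorphism -/
def gmap (γ : V ≃+ V) (τ : K ≃+* K) (hs : ∀ (a : K) v, γ (a • v) = τ a • γ v) (W : Submodule K V) :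
    Submodule K V where
  carrier := {v | γ.symm v ∈ W}
  add_mem' := by
    intro a b ha hb
    change γ.symm (a + b) ∈ W
    rw [map_add]
    exact W.add_mem ha hb
  zero_mem' := by
    change γ.symm 0 ∈ W
    rw [map_zero]
    exact W.zero_mem
  smul_mem' := by
    intro c a ha
    change γ.symm (c • a) ∈ W
    have : γ.symm (c • a) = τ.symm c • γ.symm a := by
      apply γ.injective
      rw [γ.apply_symm_apply, hs, τ.apply_symm_apply, γ.apply_symm_apply]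
    rw [this]
    exact W.smul_mem _ ha

theorem mem_gmap {γ : V ≃+ V} {τ : K ≃+* K} {hs : ∀ (a : K) v, γ (a • v) = τ a • γ v} {W : Submodule K V} {v : V} :
    v ∈ gmap γ τ hs W ↔ γ.symm v ∈ W := Iff.rfl

theorem gmap_mem {γ : V ≃+ V} {τ : K ≃+* K} {hs : ∀ (a : K) v, γ (a • v) = τ a • γ v} {W : Submodule K V} {v : V}
    (h : v ∈ W) : γ v ∈ gmap γ τ hs W := by
  rw [mem_gmap, γ.symm_apply_apply]
  exact h

theorem gmap_inj (γ : V ≃+ V) (τ : K ≃+* K) (hs : ∀ (a : K) v, γ (a • v) = τ a • γ v) :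
    Function.Injective (gmap γ τ hs) := by
  intro W W' h
  ext v
  constructor
  · intro hv
    have h1 : γ v ∈ gmap γ τ hs W' := by rw [← h]; exact gmap_mem hv
    rwa [mem_gmap, γ.symm_apply_apply] at h1
  · intro hv
    have h1 : γ v ∈ gmap γ τ hs W := by rw [h]; exact gmap_mem hv
    rwa [mem_gmap, γ.symm_apply_apply] at h1

section basis

variable {γ : V ≃+ V} {τ : K ≃+* K} (hs : ∀ (a : K) v, γ (a • v) = τ a • γ v) {W : Submodule K V} {k : ℕ}

theorem symm_smul (hs : ∀ (a : K) v, γ (a • v) = τ a • γ v) (a : K) (v : V) :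
    γ.symm (a • v) = τ.symm a • γ.symm v := by
  apply γ.injective
  rw [γ.apply_symm_apply, hs, τ.apply_symm_apply, γ.apply_symm_apply]

/-- the coordinates of the image -/
noncomputable def gfun (b : Basis (Fin k) K W) : gmap γ τ hs W ≃ₗ[K] (Fin k → K) where
  toFun w i := τ (b.equivFun ⟨γ.symm w, w.2⟩ i)
  map_add' x y := by
    funext i
    have : (⟨γ.symm ((x + y : gmap γ τ hs W) : V), (x + y).2⟩ : W) = ⟨γ.symm x, x.2⟩ + ⟨γ.symm y, y.2⟩ :=
      Subtype.ext (map_add γ.symm (x : V) (y : V))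
    rw [this, map_add, Pi.add_apply, Pi.add_apply, map_add]
  map_smul' a x := by
    funext i
    have : (⟨γ.symm ((a • x : gmap γ τ hs W) : V), (a • x).2⟩ : W) = τ.symm a • ⟨γ.symm x, x.2⟩ :=
      Subtype.ext (symm_smul hs a x)
    rw [this, map_smul, Pi.smul_apply, Pi.smul_apply, RingHom.id_apply, smul_eq_mul, smul_eq_mul, map_mul,
      τ.apply_symm_apply]
  invFun f := ⟨γ (b.equivFun.symm fun i => τ.symm (f i) : W), gmap_mem (Subtype.property _)⟩
  left_inv x := by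
    apply Subtype.ext
    simp only [τ.symm_apply_apply]
    have : (fun i => b.equivFun ⟨γ.symm x, x.2⟩ i) = b.equivFun ⟨γ.symm x, x.2⟩ := rfl
    rw [this, LinearEquiv.symm_apply_apply]
    exact γ.apply_symm_apply _
  right_inv f := by
    funext i
    have e : ∀ (z : W) (hh : γ.symm (γ (z : V)) ∈ W), (⟨γ.symm (γ (z : V)), hh⟩ : W) = z := fun z hh =>
      Subtype.ext (γ.symm_apply_apply _)
    have hz : γ.symm (γ ((b.equivFun.symm fun i => τ.symm (f i) : W) : V)) ∈ W := by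
      rw [γ.symm_apply_apply]
      exact Subtype.property _
    have e3 : τ (b.equivFun (⟨γ.symm (γ ((b.equivFun.symm fun i => τ.symm (f i) : W) : V)), hz⟩ : W) i) = f i := by
      rw [e, LinearEquiv.apply_symm_apply, τ.apply_symm_apply]
    exact e3

/-- the image of a basis -/
noncomputable def gbas (b : Basis (Fin k) K W) : Basis (Fin k) K (gmap γ τ hs W) := Basis.ofEquivFun (gfun hs b)

theorem gbas_apply (b : Basis (Fin k) K W) (i : Fin k) : ((gbas hs b i : gmap γ τ hs W) : V) = γ (b i) := by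
  classical
  unfold gbas
  rw [Basis.coe_ofEquivFun]
  change γ (b.equivFun.symm fun l => τ.symm ((Pi.single i (1 : K) : Fin k → K) l) : W) = _
  congr 2
  rw [LinearEquiv.symm_apply_eq]
  funext l
  rw [Basis.equivFun_self]
  by_cases h : i = l
  · subst h
    rw [Pi.single_eq_same, map_one, if_pos rfl]
  · rw [Pi.single_eq_of_ne (Ne.symm h), map_zero, if_neg h]

theorem gbas_repr (b : Basis (Fin k) K W) (x : gmap γ τ hs W) (i : Fin k) :
    (gbas hs b).repr x i = τ (b.repr ⟨γ.symm x, x.2⟩ i) := by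
  unfold gbas
  rw [Basis.ofEquivFun_repr_apply]
  rfl

theorem finrank_gmap [FiniteDimensional K V] (W : Submodule K V) : finrank K (gmap γ τ hs W) = finrank K W := by
  have b := finBasis K W
  rw [Module.finrank_eq_card_basis (gbas hs b), Fintype.card_fin]

end basis

/-- a semisimilarity -/
structure SSim (F : CForm K V) (γ : V ≃+ V) (τ : K ≃+* K) : Prop where
  smul : ∀ (a : K) v, γ (a • v) = τ a • γ v
  lam : ∃ l : K, l ≠ 0 ∧ (∀ u v, F.B (γ u) (γ v) = l * τ (F.B u v)) ∧ ∀ v, F.Q (γ v) = l * τ (F.Q v)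

/-- `g' = γ g γ⁻¹` -/
def Inter {F : CForm K V} (γ : V ≃+ V) (g g' : F.iso) : Prop := ∀ v, (g' : V ≃ₗ[K] V) (γ v) = γ ((g : V ≃ₗ[K] V) v)

variable {F : CForm K V} {γ : V ≃+ V} {τ : K ≃+* K}

theorem SSim.TS (h : SSim F γ τ) {W : Submodule K V} (hW : F.TS W) : F.TS (gmap γ τ h.smul W) := by
  obtain ⟨l, hl, h1, h2⟩ := h.lam
  refine ⟨fun w hw => ?_, fun w hw w' hw' => ?_⟩
  · have := h2 (γ.symm w)
    rw [γ.apply_symm_apply, hW.1 _ hw, map_zero, mul_zero] at this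
    exact this
  · have := h1 (γ.symm w) (γ.symm w')
    rw [γ.apply_symm_apply, γ.apply_symm_apply, hW.2 _ hw _ hw', map_zero, mul_zero] at this
    exact this

theorem SSim.Om [FiniteDimensional K V] (h : SSim F γ τ) {k : ℕ} {W : Submodule K V} (hW : W ∈ F.Om k) :
    gmap γ τ h.smul W ∈ F.Om k := ⟨h.TS hW.1, by rw [finrank_gmap]; exact hW.2⟩

theorem Inter.map (h : SSim F γ τ) {g g' : F.iso} (hg : Inter γ g g') (W : Submodule K V) :
    (gmap γ τ h.smul W).map (F.iso.subtype g' : V →ₗ[K] V) = gmap γ τ h.smul (W.map (F.iso.subtype g : V →ₗ[K] V)) := by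
  ext v
  constructor
  · rintro ⟨w, hw, rfl⟩
    refine ⟨γ.symm w, hw, ?_⟩
    apply γ.injective
    have := hg (γ.symm w)
    rw [γ.apply_symm_apply] at this
    rw [γ.apply_symm_apply]
    exact this.symm
  · rintro ⟨w, hw, hw'⟩
    refine ⟨γ w, gmap_mem hw, ?_⟩
    have h1 := hg w
    change (g' : V ≃ₗ[K] V) (γ w) = v
    rw [h1]
    have h2 : γ ((g : V ≃ₗ[K] V) w) = γ (γ.symm v) := congrArg γ hw'
    rw [h2, γ.apply_symm_apply]

/-- the local term -/
theorem flagTerm_gmap [FiniteDimensional K V] {k : ℕ} {c : GL (Fin k) K → ℂ} (hcf : IsClassFunction _ c)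
    (hc : ∀ A : GL (Fin k) K, c (Matrix.GeneralLinearGroup.map (τ : K →+* K) A) = c A) (h : SSim F γ τ)
    {g g' : F.iso} (hg : Inter γ g g') {W : Submodule K V} (hW : finrank K W = k) :
    flagTerm F.iso.subtype c g' (gmap γ τ h.smul W) = flagTerm F.iso.subtype c g W := by
  classical
  by_cases hgW : W.map (F.iso.subtype g : V →ₗ[K] V) = W
  · have hgW' : (gmap γ τ h.smul W).map (F.iso.subtype g' : V →ₗ[K] V) = gmap γ τ h.smul W := by
      rw [hg.map h, hgW]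
    let b : Basis (Fin k) K W := finBasisOfFinrankEq K W hW
    rw [flagTerm_of F.iso.subtype c hgW, flagTerm_of F.iso.subtype c hgW', cl_eq hcf b, cl_eq hcf (gbas h.smul b),
      ← hc (glE b _)]
    congr 1
    ext i l
    rw [coe_glE, LinearMap.toMatrix_apply, gbas_repr]
    change τ (b.repr _ i) = τ (((glE b (res (F.iso.subtype g) W hgW) : GL (Fin k) K) : Matrix _ _ K) i l)
    rw [coe_glE, LinearMap.toMatrix_apply]
    congr 3
    apply Subtype.ext
    change γ.symm ((g' : V ≃ₗ[K] V) ((gbas h.smul b l : gmap γ τ h.smul W) : V)) = (g : V ≃ₗ[K] V) (b l)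
    rw [gbas_apply, hg, γ.symm_apply_apply]
  · unfold flagTerm
    rw [dif_neg hgW, dif_neg]
    intro h1
    rw [hg.map h] at h1
    exact hgW (gmap_inj γ τ h.smul h1)

variable {W₀ : Submodule K V}

/-- a function on the stabiliser of `W₀` invariant under the semisimilarities stabilising `W₀` -/
def StabInv (F : CForm K V) (τ : K ≃+* K) (W₀ : Submodule K V) (ψ₁ : stabW F.iso.subtype W₀ → ℂ) : Prop :=
  ∀ (γ : V ≃+ V) (h : SSim F γ τ), gmap γ τ h.smul W₀ = W₀ →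
    ∀ g g' : stabW F.iso.subtype W₀, Inter γ (g : F.iso) (g' : F.iso) → ψ₁ g' = ψ₁ g

theorem psf_gmap [FiniteDimensional K V] {k : ℕ} {ψ₁ : stabW F.iso.subtype W₀ → ℂ} (hcl : IsClassFunction _ ψ₁)
    (hW₀ : W₀ ∈ F.Om k) (hψ : StabInv F τ W₀ ψ₁) (h : SSim F γ τ)
    {g g' : F.iso} (hg : Inter γ g g') {W : Submodule K V} (hW : W ∈ F.Om k)
    (hgW : W.map (F.iso.subtype g : V →ₗ[K] V) = W) :
    psf F W₀ ψ₁ g' (gmap γ τ h.smul W) = psf F W₀ ψ₁ g W := by
  classical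
  have hgW' : (gmap γ τ h.smul W).map (F.iso.subtype g' : V →ₗ[K] V) = gmap γ τ h.smul W := by
    rw [hg.map h, hgW]
  obtain ⟨x, hx⟩ := F.trans_Om hW₀ hW
  obtain ⟨x', hx'⟩ := F.trans_Om hW₀ (h.Om hW)
  have hinv : ∀ {y : F.iso} {U : Submodule K V}, W₀.map (F.iso.subtype y : V →ₗ[K] V) = U →
      U.map (F.iso.subtype y⁻¹ : V →ₗ[K] V) = W₀ := by
    intro y U hy
    rw [← hy, ← map_mul_apply, inv_mul_cancel, map_one]
    exact Submodule.map_id _
  have hst : x⁻¹ * g * x ∈ stabW F.iso.subtype W₀ := by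
    change W₀.map (F.iso.subtype (x⁻¹ * g * x) : V →ₗ[K] V) = W₀
    rw [map_mul_apply, map_mul_apply, hx, hgW, hinv hx]
  have hst' : x'⁻¹ * g' * x' ∈ stabW F.iso.subtype W₀ := by
    change W₀.map (F.iso.subtype (x'⁻¹ * g' * x') : V →ₗ[K] V) = W₀
    rw [map_mul_apply, map_mul_apply, hx', hgW', hinv hx']
  rw [psf_eq hcl hx hst, psf_eq hcl hx' hst']
  -- the semisimilarity `x'⁻¹ γ x`
  let γ₁ : V ≃+ V := ((x : V ≃ₗ[K] V).toAddEquiv.trans γ).trans ((x'⁻¹ : F.iso) : V ≃ₗ[K] V).toAddEquiv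
  have hγ₁ : ∀ v, γ₁ v = ((x'⁻¹ : F.iso) : V ≃ₗ[K] V) (γ ((x : V ≃ₗ[K] V) v)) := fun v => rfl
  have h1 : SSim F γ₁ τ := by
    obtain ⟨l, hl, h1, h2⟩ := h.lam
    refine ⟨fun a v => ?_, l, hl, fun u v => ?_, fun v => ?_⟩
    · rw [hγ₁, hγ₁, map_smul, h.smul, map_smul]
    · rw [hγ₁, hγ₁, F.iso_B, h1, F.iso_B]
    · rw [hγ₁, F.iso_Q, h2, F.iso_Q]
  have hinv1 : ∀ (y : F.iso) v, ((y⁻¹ : F.iso) : V ≃ₗ[K] V) ((y : V ≃ₗ[K] V) v) = v := fun y v =>
    (y : V ≃ₗ[K] V).symm_apply_apply v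
  have hinv2 : ∀ (y : F.iso) v, (y : V ≃ₗ[K] V) (((y⁻¹ : F.iso) : V ≃ₗ[K] V) v) = v := fun y v =>
    (y : V ≃ₗ[K] V).apply_symm_apply v
  refine hψ γ₁ h1 ?_ _ _ fun v => ?_
  · apply Submodule.eq_of_le_of_finrank_eq
    · intro v hv
      have h3 : v = γ₁ (γ₁.symm v) := (γ₁.apply_symm_apply v).symm
      rw [h3, hγ₁]
      have h4 : γ ((x : V ≃ₗ[K] V) (γ₁.symm v)) ∈ gmap γ τ h.smul W := by
        refine gmap_mem ?_
        rw [← hx]
        exact ⟨_, hv, rfl⟩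
      have h5 : ((x'⁻¹ : F.iso) : V ≃ₗ[K] V) (γ ((x : V ≃ₗ[K] V) (γ₁.symm v))) ∈
          (gmap γ τ h.smul W).map (F.iso.subtype x'⁻¹ : V →ₗ[K] V) := ⟨_, h4, rfl⟩
      rwa [hinv hx'] at h5
    · exact finrank_gmap h1.smul W₀
  · change ((x'⁻¹ * g' * x' : F.iso) : V ≃ₗ[K] V) (γ₁ v) = γ₁ (((x⁻¹ * g * x : F.iso) : V ≃ₗ[K] V) v)
    rw [hγ₁, hγ₁]
    change ((x'⁻¹ : F.iso) : V ≃ₗ[K] V) ((g' : V ≃ₗ[K] V) ((x' : V ≃ₗ[K] V)
      (((x'⁻¹ : F.iso) : V ≃ₗ[K] V) (γ ((x : V ≃ₗ[K] V) v))))) = ((x'⁻¹ : F.iso) : V ≃ₗ[K] V)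
        (γ ((x : V ≃ₗ[K] V) (((x⁻¹ : F.iso) : V ≃ₗ[K] V) ((g : V ≃ₗ[K] V) ((x : V ≃ₗ[K] V) v)))))
    rw [hinv2, hinv2, hg]

/-- **invariance**, general form -/
theorem hc_inv_of [Finite V] [FiniteDimensional K V] {k : ℕ} [Fintype (F.Om k)] {c : GL (Fin k) K → ℂ}
    (hcf : IsClassFunction _ c)
    (hc : ∀ A : GL (Fin k) K, c (Matrix.GeneralLinearGroup.map (τ : K →+* K) A) = c A)
    {ψ₁ : stabW F.iso.subtype W₀ → ℂ} (hcl : IsClassFunction _ ψ₁) (hW₀ : W₀ ∈ F.Om k) (hψ : StabInv F τ W₀ ψ₁)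
    (h : SSim F γ τ) {g g' : F.iso} (hg : Inter γ g g') :
    F.hc c (psf F W₀ ψ₁) g' = F.hc c (psf F W₀ ψ₁) g := by
  classical
  unfold CForm.hc
  let f : F.Om k → F.Om k := fun W => ⟨gmap γ τ h.smul W.1, h.Om W.2⟩
  have hf : Function.Injective f := fun W W' e => Subtype.ext (gmap_inj γ τ h.smul (congrArg Subtype.val e))
  let e : F.Om k ≃ F.Om k := Equiv.ofBijective f (Finite.injective_iff_bijective.1 hf)
  rw [← Equiv.sum_comp e]
  refine Finset.sum_congr rfl fun W _ => ?_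
  change flagTerm F.iso.subtype c g' (gmap γ τ h.smul W.1) * psf F W₀ ψ₁ g' (gmap γ τ h.smul W.1) = _
  rw [flagTerm_gmap hcf hc h hg W.2.2]
  by_cases hgW : W.1.map (F.iso.subtype g : V →ₗ[K] V) = W.1
  · rw [psf_gmap hcl hW₀ hψ h hg W.2 hgW]
  · have : flagTerm F.iso.subtype c g W.1 = 0 := by
      unfold flagTerm
      rw [dif_neg hgW]
    rw [this, zero_mul, zero_mul]

variable {X : Type w} [AddCommGroup X] [Module K X] {F' : CForm K X} {j : X →ₗ[K] V}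

/-- a function on `F'.iso` invariant under the semisimilarities with the field automorphism `τ` -/
def IsoInv (F' : CForm K X) (τ : K ≃+* K) (ψ₀ : F'.iso → ℂ) : Prop :=
  ∀ γ' : X ≃+ X, SSim F' γ' τ → ∀ g g' : F'.iso, Inter γ' g g' → ψ₀ g' = ψ₀ g

theorem stabInv_of [FiniteDimensional K V] [FiniteDimensional K X] [Finite V] (h : Cmp F F' j W₀)
    {ρ : stabW F.iso.subtype W₀ →* F'.iso}
    (hρ1 : ∀ (g : stabW F.iso.subtype W₀) y, ((g : F.iso) : V ≃ₗ[K] V) (j y) - j ((ρ g : X ≃ₗ[K] X) y) ∈ W₀)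
    {ψ₀ : F'.iso → ℂ} (hψ : IsoInv F' τ ψ₀) : StabInv F τ W₀ (ψ₀ ∘ ρ) := by
  classical
  intro γ hγ hW g g' hg
  obtain ⟨r, hr, hrj, hrW⟩ := h.exists_proj
  obtain ⟨l, hl, h1, h2⟩ := hγ.lam
  have hjinj : Function.Injective j := by
    rw [injective_iff_map_eq_zero]
    intro y hy
    refine F'.nondeg y fun z => ?_
    rw [← h.jB, hy, F.B_zero_left]
  have hfX : Finite X := Finite.of_injective j hjinj
  have hγW : ∀ w ∈ W₀, γ w ∈ W₀ := fun w hw => by
    rw [← hW]; exact gmap_mem hw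
  have hγW' : ∀ w, γ w ∈ W₀ → w ∈ W₀ := fun w hw => by
    rw [← hW, mem_gmap, γ.symm_apply_apply] at hw
    exact hw
  -- the image of `j y`
  have key : ∀ y : X, ∃ w ∈ W₀, γ (j y) = w + j (r (γ (j y))) := by
    intro y
    have hp : γ (j y) ∈ F.perp W₀ := by
      intro w hw
      have hw' : γ.symm w ∈ W₀ := by
        apply hγW'
        rw [γ.apply_symm_apply]; exact hw
      have := h1 (j y) (γ.symm w)
      rw [γ.apply_symm_apply, h.j1 y _ hw', map_zero, mul_zero] at this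
      exact this
    obtain ⟨w, hw, x, e⟩ := h.j2 _ hp
    refine ⟨w, hw, ?_⟩
    rw [e, map_add, hrW w hw, hrj, zero_add]
  let f : X →+ X :=
    { toFun := fun y => r (γ (j y))
      map_zero' := by rw [map_zero, map_zero, map_zero]
      map_add' := fun a b => by rw [map_add, map_add, map_add] }
  have hf : Function.Injective f := by
    rw [injective_iff_map_eq_zero]
    intro y hy
    obtain ⟨w, hw, e⟩ := key y
    have hy' : r (γ (j y)) = 0 := hy
    rw [hy', map_zero, add_zero] at e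
    have h3 : j y ∈ W₀ := by
      apply hγW'
      rw [e]; exact hw
    rw [← hrj y, hrW _ h3]
  let γ' : X ≃+ X := AddEquiv.ofBijective f (Finite.injective_iff_bijective.1 hf)
  have hγ' : ∀ y, γ' y = r (γ (j y)) := fun y => rfl
  have hperp : ∀ w ∈ W₀, ∀ y, F.B w (j y) = 0 := fun w hw y => F.B_eq_zero (h.j1 y w hw)
  have hS : SSim F' γ' τ := by
    refine ⟨fun a y => ?_, l, hl, fun u v => ?_, fun y => ?_⟩
    · rw [hγ', hγ', map_smul, hγ.smul, map_smul]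
    · obtain ⟨w, hw, e⟩ := key u
      obtain ⟨w', hw', e'⟩ := key v
      have h3 := h1 (j u) (j v)
      rw [e, e', F.B_add_left, F.B_add_right, F.B_add_right, h.ts.2 w hw w' hw', hperp w hw,
        h.j1 _ w' hw', h.jB, h.jB] at h3
      rw [hγ', hγ', ← h3]
      ring
    · obtain ⟨w, hw, e⟩ := key y
      have h3 := h2 (j y)
      rw [e, F.Q_add, h.ts.1 w hw, hperp w hw, F.T_zero, h.jQ, h.jQ] at h3
      rw [hγ', ← h3]
      ring
  refine hψ γ' hS _ _ fun y => ?_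
  -- `ρ g' γ' y = γ' ρ g y`
  have h3 := hρ1 g y
  have h4 : γ (((g : F.iso) : V ≃ₗ[K] V) (j y)) - γ (j ((ρ g : X ≃ₗ[K] X) y)) ∈ W₀ := by
    rw [← map_sub]
    exact hγW _ h3
  have h5 : r (γ (((g : F.iso) : V ≃ₗ[K] V) (j y))) = γ' ((ρ g : X ≃ₗ[K] X) y) := by
    have := hrW _ h4
    rw [map_sub, sub_eq_zero] at this
    rw [this, hγ']
  rw [← h5, ← hg (j y)]
  obtain ⟨w, hw, e⟩ := key y
  have h6 := hρ1 g' (r (γ (j y)))
  have h7 := hrW _ h6
  rw [map_sub, hrj, sub_eq_zero] at h7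
  have h9 : W₀.map (F.iso.subtype (g' : F.iso) : V →ₗ[K] V) = W₀ := g'.2
  have h8 : ((g' : F.iso) : V ≃ₗ[K] V) w ∈ W₀ := h9.le ⟨w, hw, rfl⟩
  rw [hγ', ← h7]
  conv_rhs => rw [e, map_add, map_add, hrW _ h8, zero_add]

/-- **INVARIANCE** -/
theorem hc_inv [Finite V] [FiniteDimensional K V] [FiniteDimensional K X] (h : Cmp F F' j W₀) {k : ℕ}
    [Fintype (F.Om k)] {c : GL (Fin k) K → ℂ} (hcf : IsClassFunction _ c)
    (hc : ∀ A : GL (Fin k) K, c (Matrix.GeneralLinearGroup.map (τ : K →+* K) A) = c A) (hW₀ : W₀ ∈ F.Om k)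
    {ρ : stabW F.iso.subtype W₀ →* F'.iso}
    (hρ1 : ∀ (g : stabW F.iso.subtype W₀) y, ((g : F.iso) : V ≃ₗ[K] V) (j y) - j ((ρ g : X ≃ₗ[K] X) y) ∈ W₀)
    {ψ₀ : F'.iso → ℂ} (hcl : IsClassFunction _ ψ₀) (hψ : IsoInv F' τ ψ₀) :
    IsoInv F τ (F.hc c (psf F W₀ (ψ₀ ∘ ρ))) := by
  intro γ hγ g g' hg
  have hcl1 : IsClassFunction _ (ψ₀ ∘ ρ) := fun g x => by
    simp only [Function.comp_apply, map_mul, map_inv]
    exact hcl _ _
  exact hc_inv_of hcf hc hcl1 hW₀ (stabInv_of h hρ1 hψ) hγ hg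

end Cfsg.Agent.H139.HT
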