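import Cfsg.Agent.H139.HT.HcSum
import Cfsg.Agent.H139.HT.Inv
import Cfsg.Agent.H139.HT.Const
import Cfsg.Agent.H697.HT.DPB0
import Cfsg.Agent.H766.HT.DPVal
import Cfsg.Agent.H316.HT.Defs

/-!
# S4933 (helper139): the assembly for the linear primes, weight `-1` modulo `p`

`SSim.cja`    : the automorphism of `F.iso` induced by a semisimilarity;
`PolSet`       : a set `Y` representing the totally singular subspaces of dimension `m`;
`mem_chi`      : the characters of the dual polar scheme in the principal block, with the constituent property;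
`exists_linear`: **the box**: `χ ∈ B₀(F.iso)`, `vd p χ = 1`, invariant.
-/

set_option autoImplicit false

open scoped ComplexConjugate
open Cfsg

namespace Cfsg.Agent.H139.HT

open Cfsg.Agent.OddOrderCharacters.Clifford Cfsg.Agent.Characters MulAction Module Cfsg.Agent.H53.HC
open Cfsg.Agent.H749.Two Cfsg.Agent.H477.HC Cfsg.Agent.H477.HC.CForm
open Cfsg.Agent.H722.DPol Cfsg.Agent.H697.HT.DPB0

universe u v w

section cjs

variable {K : Type u} [Field K] {V : Type v} [AddCommGroup V] [Module K V] {F : CForm K V} {γ : V ≃+ V}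
  {τ : K ≃+* K}

/-- the conjugate of an isometry -/
def SSim.cj (h : SSim F γ τ) (g : F.iso) : V ≃ₗ[K] V :=
  { ((γ.symm.trans (g : V ≃ₗ[K] V).toAddEquiv).trans γ : V ≃+ V) with
    map_smul' := fun a v => by
      change γ ((g : V ≃ₗ[K] V) (γ.symm (a • v))) = a • γ ((g : V ≃ₗ[K] V) (γ.symm v))
      rw [symm_smul h.smul, map_smul, h.smul, τ.apply_symm_apply] }

theorem SSim.cj_apply (h : SSim F γ τ) (g : F.iso) (v : V) : h.cj g v = γ ((g : V ≃ₗ[K] V) (γ.symm v)) := rfl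

/-- the automorphism induced by a semisimilarity -/
def SSim.cja (h : SSim F γ τ) : F.iso ≃* F.iso where
  toFun g := ⟨h.cj g, by
    obtain ⟨l, hl, h1, h2⟩ := h.lam
    refine ⟨fun u v => ?_, fun v => ?_⟩
    · rw [h.cj_apply, h.cj_apply, h1, F.iso_B, ← h1, γ.apply_symm_apply, γ.apply_symm_apply]
    · rw [h.cj_apply, h2, F.iso_Q, ← h2, γ.apply_symm_apply]⟩
  invFun g := ⟨{ ((γ.trans (g : V ≃ₗ[K] V).toAddEquiv).trans γ.symm : V ≃+ V) with
      map_smul' := fun a v => by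
        change γ.symm ((g : V ≃ₗ[K] V) (γ (a • v))) = a • γ.symm ((g : V ≃ₗ[K] V) (γ v))
        rw [h.smul, map_smul, symm_smul h.smul, τ.symm_apply_apply] }, by
    obtain ⟨l, hl, h1, h2⟩ := h.lam
    refine ⟨fun u v => ?_, fun v => ?_⟩
    · change F.B (γ.symm ((g : V ≃ₗ[K] V) (γ u))) (γ.symm ((g : V ≃ₗ[K] V) (γ v))) = F.B u v
      have e := h1 (γ.symm ((g : V ≃ₗ[K] V) (γ u))) (γ.symm ((g : V ≃ₗ[K] V) (γ v)))
      rw [γ.apply_symm_apply, γ.apply_symm_apply, F.iso_B, h1] at e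
      exact (τ.injective (mul_left_cancel₀ hl e)).symm
    · change F.Q (γ.symm ((g : V ≃ₗ[K] V) (γ v))) = F.Q v
      have e := h2 (γ.symm ((g : V ≃ₗ[K] V) (γ v)))
      rw [γ.apply_symm_apply, F.iso_Q, h2] at e
      exact (τ.injective (mul_left_cancel₀ hl e)).symm⟩
  left_inv g := by
    apply Subtype.ext
    ext v
    change γ.symm (γ ((g : V ≃ₗ[K] V) (γ.symm (γ v)))) = _
    rw [γ.symm_apply_apply, γ.symm_apply_apply]
  right_inv g := by
    apply Subtype.ext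
    ext v
    change γ (γ.symm ((g : V ≃ₗ[K] V) (γ (γ.symm v)))) = _
    rw [γ.apply_symm_apply, γ.apply_symm_apply]
  map_mul' g g' := by
    apply Subtype.ext
    ext v
    change γ ((g : V ≃ₗ[K] V) ((g' : V ≃ₗ[K] V) (γ.symm v))) = γ ((g : V ≃ₗ[K] V) (γ.symm
      (γ ((g' : V ≃ₗ[K] V) (γ.symm v)))))
    rw [γ.symm_apply_apply]

theorem SSim.inter_cja (h : SSim F γ τ) (g : F.iso) : Inter γ g (h.cja g) := by
  intro v
  change γ ((g : V ≃ₗ[K] V) (γ.symm (γ v))) = _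
  rw [γ.symm_apply_apply]

theorem Inter.eq_cja (h : SSim F γ τ) {g g' : F.iso} (hg : Inter γ g g') : g' = h.cja g := by
  apply Subtype.ext
  ext v
  change (g' : V ≃ₗ[K] V) v = γ ((g : V ≃ₗ[K] V) (γ.symm v))
  rw [← hg (γ.symm v), γ.apply_symm_apply]

end cjs

section pol

variable {K : Type u} [Field K] {V : Type v} [AddCommGroup V] [Module K V]

/-- the set `Y` of the totally singular subspaces of dimension `m`, with the distance `m - dim (x ∩ y)` -/
structure PolSet (F : CForm K V) (m : ℕ) (Y : Type w) [MulAction F.iso Y] (s : Y → Submodule K V) (d : Y → Y → ℕ) :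
    Prop where
  inj : Function.Injective s
  mem : ∀ y, s y ∈ F.Om m
  surj : ∀ W ∈ F.Om m, ∃ y, s y = W
  smul : ∀ (g : F.iso) y, s (g • y) = (s y).map (F.iso.subtype g : V →ₗ[K] V)
  dist : ∀ y y', d y y' = m - finrank K (s y ⊓ s y' : Submodule K V)

variable {F : CForm K V} {m : ℕ} {Y : Type w} [MulAction F.iso Y] {s : Y → Submodule K V} {d : Y → Y → ℕ}

theorem gmap_inf {γ : V ≃+ V} {τ : K ≃+* K} (hs : ∀ (a : K) v, γ (a • v) = τ a • γ v) (W W' : Submodule K V) :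
    gmap γ τ hs W ⊓ gmap γ τ hs W' = gmap γ τ hs (W ⊓ W') := rfl

/-- a semisimilarity is an isometry of the dual polar scheme -/
theorem PolSet.iso [FiniteDimensional K V] [Finite Y] (h : PolSet F m Y s d) {γ : V ≃+ V} {τ : K ≃+* K}
    (hγ : SSim F γ τ) : Iso d hγ.cja := by
  classical
  have h1 : ∀ y, ∃ y', s y' = gmap γ τ hγ.smul (s y) := fun y => h.surj _ (hγ.Om (h.mem y))
  choose π hπ using h1
  have hinj : Function.Injective π := by
    intro y y' e
    apply h.inj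
    apply gmap_inj γ τ hγ.smul
    rw [← hπ, ← hπ, e]
  let e : Equiv.Perm Y := Equiv.ofBijective π (Finite.injective_iff_bijective.1 hinj)
  refine ⟨e, fun g y => ?_, fun y y' => ?_⟩
  · apply h.inj
    change s (π (g • y)) = s (hγ.cja g • π y)
    rw [hπ, h.smul, h.smul, hπ, (hγ.inter_cja g).map hγ]
  · change d (π y) (π y') = d y y'
    rw [h.dist, h.dist, hπ, hπ, gmap_inf, finrank_gmap]

theorem PolSet.isoInv [FiniteDimensional K V] [Finite Y] (h : PolSet F m Y s d) {Q t j : ℕ} {χ : F.iso → ℂ}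
    (hχ : IsChi d m Q t j χ) (τ : K ≃+* K) : IsoInv F τ χ := by
  intro γ hγ g g' hg
  rw [Inter.eq_cja hγ hg]
  exact hχ.2 _ (h.iso hγ) g

end pol

section block

open Cfsg.Agent.H582.Sph Cfsg.Agent.H816.IMEig Cfsg.Agent.Blocks.Fong

variable {G : Type u} [Group G] {X : Type v} [MulAction G X] {d : X → X → ℕ} {m Q s j p : ℕ} {M : Ideal AlgInt}

/-- helper697's `exists_mem`, with the formula for the values -/
theorem exists_mem' [Finite G] [Fintype X] [Nonempty X] (hM : IsPModular p M) (hQ : 2 ≤ Q) (hs : 1 ≤ s) (hm : 1 ≤ m)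
    (h : DP G X d m Q s) (hj : j ≤ m) (e : ℕ)
    (hc : ∀ i < e, (p : ℤ) ∣ PP (Q : ℤ) (s : ℤ) m j i - PP (Q : ℤ) (s : ℤ) m 0 i) (hI : Ines1 p e G d) :
    ∃ χ : IrrCharacter G, χ ∈ principalBlock M G ∧ IsChi d m Q s j (χ : G → ℂ) ∧
      ∀ g : G, (χ : G → ℂ) g = ∑ x : X, ((ff (Q : ℚ) (s : ℚ) m j : ℚ) : ℂ) / (Nat.card X : ℂ) *
        ((om m Q s j (d x (g • x)) : ℚ) : ℂ) := by
  classical
  have hp := hM.2.1.isPrime
  obtain ⟨χ, hχ, h1, h2⟩ := DP.exists_char hQ hs hm h hj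
  have hQ' : (1 : ℚ) < Q := by exact_mod_cast hQ
  have hs' : (0 : ℚ) < s := by exact_mod_cast hs
  have hff : ff (Q : ℚ) (s : ℚ) m j ≠ 0 := (ff_pos hQ' hs' hj).ne'
  have hX0 : (Nat.card X : ℂ) ≠ 0 := by exact_mod_cast (Nat.card_pos (α := X)).ne'
  refine ⟨⟨χ, hχ⟩, ?_, ⟨h1, ?_⟩, fun g => ?_⟩
  · refine mem_principal_of_sph' (ω := fun u : Fin (m + 1) => ((om m Q s j u : ℚ) : ℂ)) hM h.toCol ⟨χ, hχ⟩
      (a := ((ff (Q : ℚ) (s : ℚ) m j : ℚ) : ℂ) / (Nat.card X : ℂ)) ?_ ?_ ?_ ?_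
    · exact div_ne_zero (by exact_mod_cast hff) hX0
    · show ((om m Q s j 0 : ℚ) : ℂ) = 1
      rw [om_zero]
      norm_num
    · exact h2
    · intro x u
      have hu : (u : ℕ) ≤ m := Nat.le_of_lt_succ u.2
      have e1 : ((Col.kk h.col x u : ℕ) : ℚ) = PP (Q : ℚ) (s : ℚ) m 0 u := DP.kk_eq hQ hs h x u
      have e2 : (Col.kk h.col x u : ℂ) * ((om m Q s j u : ℚ) : ℂ) - (Col.kk h.col x u : ℂ) =
          (((PP (Q : ℤ) (s : ℤ) m j u - PP (Q : ℤ) (s : ℤ) m 0 u : ℤ) : AlgInt) : ℂ) := by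
        have e3 : ((Col.kk h.col x u : ℕ) : ℚ) * om m Q s j u - ((Col.kk h.col x u : ℕ) : ℚ) =
            ((PP (Q : ℤ) (s : ℤ) m j u - PP (Q : ℤ) (s : ℤ) m 0 u : ℤ) : ℚ) := by
          rw [Int.cast_sub, PP_castQ, PP_castQ, e1]
          unfold om
          have := (val_pos hQ' hs' hu).ne'
          field_simp
        have e4 := congrArg (fun r : ℚ => (r : ℂ)) e3
        push_cast at e4 ⊢
        exact e4
      rw [e2]
      rcases Nat.lt_or_ge (u : ℕ) e with hlt | hge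
      · left
        obtain ⟨k, hk⟩ := hc u hlt
        rw [lideal_coe_iff hp, hk]
        push_cast
        exact M.mul_mem_right _ hM.2.2
      · right
        refine ⟨lring_coe hp _, ?_⟩
        intro x' y' hxy
        refine hI x' y' ?_
        have := congrArg Fin.val hxy
        change d x' y' = (u : ℕ) at this
        omega
  · rintro γ ⟨π, hπ1, hπ2⟩ g
    show χ (γ g) = χ g
    rw [h2, h2]
    congr 1
    rw [← Equiv.sum_comp π]
    refine Finset.sum_congr rfl fun x _ => ?_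
    rw [← hπ1, hπ2]
  · change χ g = _
    rw [h2, Finset.mul_sum]

/-- **The characters of the dual polar schemes**, linear primes, with the constituent property -/
theorem mem_chi [Finite G] [Finite X] [Nonempty X] (hM : IsPModular p M) (hQ : 2 ≤ Q) (hs : 1 ≤ s)
    (hm : 1 ≤ m) (h : DP G X d m Q s) (hj : j ≤ m) {e : ℕ} (he : ∀ k, 0 < k → k < e → (Q : ZMod p) ^ k ≠ 1)
    (hQj : (Q : ZMod p) ^ j = 1) (hI : Ines1 p e G d) :
    ∃ χ : IrrCharacter G, χ ∈ principalBlock M G ∧ IsChi d m Q s j (χ : G → ℂ) ∧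
      ∃ θ : G → ℂ, IsCharacter G θ ∧ ∀ g : G, (χ : G → ℂ) g + θ g = (Nat.card {x : X // g • x = x} : ℂ) := by
  have : Fact p.Prime := ⟨hM.1⟩
  have := Fintype.ofFinite X
  obtain ⟨χ, h1, h2, h3⟩ := exists_mem' hM hQ hs hm h hj e (fun i hi => dvd_linear he hj hQj hi) hI
  exact ⟨χ, h1, h2, exists_theta χ.2
    (f := fun x y => ((ff (Q : ℚ) (s : ℚ) m j : ℚ) : ℂ) / (Nat.card X : ℂ) * ((om m Q s j (d x y) : ℚ) : ℂ)) h3⟩

end block

section main

variable {K : Type u} [Field K] {V : Type v} [AddCommGroup V] [Module K V] {F : CForm K V}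
  {X : Type w} [AddCommGroup X] [Module K X] {F' : CForm K X} {j : X →ₗ[K] V} {W₀ : Submodule K V}

/-- the input from `GL_f` -/
structure RhoGL (p : ℕ) (M : Ideal AlgInt) (K : Type u) [Field K] (σ : K →+* K) (f : ℕ)
    (c : IrrCharacter (GL (Fin f) K)) : Prop where
  cusp : IsCusp (c : GL (Fin f) K → ℂ)
  dual : (c : GL (Fin f) K → ℂ) ∘ ((Matrix.GeneralLinearGroup.map σ).comp (invT f)) ≠ c
  mem : c ∈ principalBlock M (GL (Fin f) K)
  deg : ¬ p ∣ charDegree (c : GL (Fin f) K → ℂ)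
  inv : ∀ τ : K ≃+* K, (∃ k, τ ^ p ^ k = 1) → ∀ A : GL (Fin f) K,
    (c : GL (Fin f) K → ℂ) (Matrix.GeneralLinearGroup.map (τ : K →+* K) A) = (c : GL (Fin f) K → ℂ) A

/-- **the Harish-Chandra box with valuation and invariance**: any `ψ₀` -/
theorem exists_hc_box [Finite K] [FiniteDimensional K V] [Finite V] [FiniteDimensional K X] (h : Cmp F F' j W₀)
    {l : ℕ} [Fact l.Prime] [CharP K l] {p : ℕ} [Fact p.Prime] (hlp : l ≠ p) {M : Ideal AlgInt} (hM : IsPModular p M)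
    {f : ℕ} (hf : 0 < f) (hW₀ : W₀ ∈ F.Om f) (hidx : ¬ p ∣ Nat.card (F.Om f))
    {c : IrrCharacter (GL (Fin f) K)} (hc : RhoGL p M K F.σ f c)
    {Y : Type*} [MulAction F'.iso Y] [Finite Y] {s : Y → Submodule K X} {d : Y → Y → ℕ} {m : ℕ}
    (hY : PolSet F' m Y s d) (ψ₀ : IrrCharacter F'.iso) {θ₀ : F'.iso → ℂ} (hθ : IsCharacter _ θ₀)
    (hsum : ∀ g, (ψ₀ : F'.iso → ℂ) g + θ₀ g = (Nat.card {y : Y // g • y = y} : ℂ))
    (hψB : ψ₀ ∈ principalBlock M F'.iso) (hψI : ∀ τ : K ≃+* K, (∃ k, τ ^ p ^ k = 1) → IsoInv F' τ (ψ₀ : F'.iso → ℂ)) :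
    ∃ χ : IrrCharacter F.iso, χ ∈ principalBlock M F.iso ∧
      H316.HT.vd p (χ : F.iso → ℂ) = H316.HT.vd p (ψ₀ : F'.iso → ℂ) ∧
      ∀ τ : K ≃+* K, (∃ k, τ ^ p ^ k = 1) → IsoInv F τ (χ : F.iso → ℂ) := by
  classical
  have := finite_Om F f
  let _ := Fintype.ofFinite (F.Om f)
  obtain ⟨χ, h1, h2, ρ, hρ1, hρ2, h3⟩ := exists_ts h hlp hM hf hW₀ c hc.cusp hc.dual hc.mem s
    (fun y => (hY.mem y).1) (fun g y e => hY.inj (by rw [hY.smul, e])) ψ₀ hθ hsum hψB
  refine ⟨χ, h1, ?_, fun τ hτ => ?_⟩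
  · unfold H316.HT.vd
    have n1 : Nat.card (F.Om f) ≠ 0 := by
      have : Nonempty (F.Om f) := ⟨⟨W₀, hW₀⟩⟩
      exact Nat.card_pos.ne'
    have n2 : charDegree (c : GL (Fin f) K → ℂ) ≠ 0 := (Blocks.Basic.charDegree_pos c.2).ne'
    have hfX : Finite X := by
      have hjinj : Function.Injective j := by
        rw [injective_iff_map_eq_zero]
        intro y hy
        refine F'.nondeg y fun z => ?_
        rw [← h.jB, hy, F.B_zero_left]
      exact Finite.of_injective j hjinj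
    have := finite_iso F'
    have n3 : charDegree (ψ₀ : F'.iso → ℂ) ≠ 0 := (Blocks.Basic.charDegree_pos ψ₀.2).ne'
    rw [h2, Nat.factorization_mul (mul_ne_zero n1 n2) n3, Nat.factorization_mul n1 n2]
    simp only [Finsupp.add_apply]
    rw [Nat.factorization_eq_zero_of_not_dvd hidx, Nat.factorization_eq_zero_of_not_dvd hc.deg]
    ring
  · rw [h3]
    exact hc_inv h (Core.isIrr_isClassFunction c.2) (hc.inv τ hτ) hW₀ hρ1 (Core.isIrr_isClassFunction ψ₀.2)
      (hψI τ hτ)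

/-- **THE ASSEMBLY, linear primes, weight `-1` modulo `p`.**  `m` is the Witt index of `F'` (so `m / f = W - 1`). -/
theorem exists_linear [Finite K] [FiniteDimensional K V] [Finite V] [FiniteDimensional K X] (h : Cmp F F' j W₀)
    {l : ℕ} [Fact l.Prime] [CharP K l] {p : ℕ} [Fact p.Prime] (hp2 : p ≠ 2) (hlp : l ≠ p) {M : Ideal AlgInt}
    (hM : IsPModular p M) {f : ℕ} (hf : orderOf ((Nat.card K : ℕ) : ZMod p) = f) (hodd : Odd f) (hW₀ : W₀ ∈ F.Om f)
    (hidx : ¬ p ∣ Nat.card (F.Om f))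
    {c : IrrCharacter (GL (Fin f) K)} (hc : RhoGL p M K F.σ f c)
    {Y : Type*} [MulAction F'.iso Y] [Finite Y] [Nonempty Y] {s : Y → Submodule K X} {d : Y → Y → ℕ} {m t : ℕ}
    (hY : PolSet F' m Y s d) (hDP : DP F'.iso Y d m (Nat.card K) (Nat.card K ^ t)) (hI : Ines1 p f F'.iso d)
    (h1 : p ≤ m / f) (h2 : m / f < p * p) (h3 : (m / f) % p ≠ p - 1) :
    ∃ χ : IrrCharacter F.iso, χ ∈ principalBlock M F.iso ∧ H316.HT.vd p (χ : F.iso → ℂ) = 1 ∧
      ∀ τ : K ≃+* K, (∃ k, τ ^ p ^ k = 1) → IsoInv F τ (χ : F.iso → ℂ) := by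
  classical
  have hp : p.Prime := Fact.out
  have hq : 2 ≤ Nat.card K := Finite.one_lt_card
  have hf0 : 0 < f := hodd.pos
  have hfX : Finite X := by
    have hjinj : Function.Injective j := by
      rw [injective_iff_map_eq_zero]
      intro y hy
      refine F'.nondeg y fun z => ?_
      rw [← h.jB, hy, F.B_zero_left]
    exact Finite.of_injective j hjinj
  have := finite_iso F'
  have hfm : f * p ≤ m := by
    rw [mul_comm]
    exact (Nat.le_div_iff_mul_le hf0).1 h1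
  have hj : f * (p - 1) ≤ m := (Nat.mul_le_mul_left _ (Nat.sub_le _ _)).trans hfm
  have hm : 1 ≤ m := (Nat.one_le_iff_ne_zero.2 (mul_ne_zero hf0.ne' hp.ne_zero)).trans hfm
  obtain ⟨ψ₀, k1, k2, θ₀, k3, k4⟩ := mem_chi (j := f * (p - 1)) hM hq (Nat.one_le_pow _ _ (by omega)) hm hDP hj
    (e := f) (fun k hk0 hk h0 => by
      have := orderOf_dvd_of_pow_eq_one h0
      rw [hf] at this
      exact absurd (Nat.le_of_dvd hk0 this) (by omega)) (by
      rw [pow_mul, ← hf, pow_orderOf_eq_one, one_pow]) hI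
  obtain ⟨χ, e1, e2, e3⟩ := exists_hc_box h hlp hM hf0 hW₀ hidx hc hY ψ₀ k3 k4 k1 (fun τ _ => hY.isoInv k2 τ)
  refine ⟨χ, e1, ?_, e3⟩
  rw [e2]
  have h4 := H766.HT.val_ff_linear (p := p) hp2 hq hf hodd t h1 h2 h3
  exact H766.HT.vd_of_val ψ₀ k2.1 (by exact_mod_cast h4)

end main

end Cfsg.Agent.H139.HT
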