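import Cfsg.Agent.H139.HT.Lin
import Cfsg.Agent.H697.HT.DPForm
import Cfsg.Agent.H674.HT.Idx

/-!
# S4933 (helper139): the linear primes, weight `-1` modulo `p`, the four models

`f` the order of `q` modulo `p`, odd, `W = (f + n) / f` the weight, `W = -1` modulo `p`, `p ≤ W < p ^ 2`.

`Box p M F` : a character of `F.iso` in the principal block, of degree of `p`-valuation one, invariant under all
semisimilarities with field automorphism of `p`-power order.
-/

set_option autoImplicit false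

open scoped ComplexConjugate
open Cfsg

namespace Cfsg.Agent.H139.HT

open Cfsg.Agent.OddOrderCharacters.Clifford Cfsg.Agent.Characters MulAction Module Cfsg.Agent.H53.HC
open Cfsg.Agent.H749.Two Cfsg.Agent.H477.HC Cfsg.Agent.H477.HC.CForm
open Cfsg.Agent.H722.DPol Cfsg.Agent.H697.HT.DPB0 Cfsg.Agent.H697.HT.DPForm

universe u v w

/-- a character of `F.iso` in the principal block, of valuation one, invariant -/
def Box {K : Type u} [Field K] {V : Type v} [AddCommGroup V] [Module K V] (p : ℕ) (M : Ideal AlgInt) (F : CForm K V) :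
    Prop :=
  ∃ χ : IrrCharacter F.iso, χ ∈ principalBlock M F.iso ∧ H316.HT.vd p (χ : F.iso → ℂ) = 1 ∧
    ∀ τ : K ≃+* K, (∃ k, τ ^ p ^ k = 1) → IsoInv F τ (χ : F.iso → ℂ)

section polset

variable {K : Type u} [Field K] {V : Type v} [AddCommGroup V] [Module K V]

/-- the action on the totally singular subspaces -/
@[reducible] def omAct (F : CForm K V) (m : ℕ) : MulAction F.iso (F.Om m) := subAct F.iso.subtype (F.Om m) F.Om_map

/-- the distance -/
noncomputable def omD (F : CForm K V) (m : ℕ) (x y : F.Om m) : ℕ := m - finrank K ↥(x.1 ⊓ y.1)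

theorem polSet_Om (F : CForm K V) (m : ℕ) :
    letI := omAct F m
    PolSet F m (F.Om m) Subtype.val (omD F m) := by
  let _ := omAct F m
  exact
    { inj := Subtype.val_injective
      mem := fun y => y.2
      surj := fun W hW => ⟨⟨W, hW⟩, rfl⟩
      smul := fun _ _ => rfl
      dist := fun _ _ => rfl }

end polset

section models

variable {K : Type u} [Field K] [Finite K] {l : ℕ} [Fact l.Prime] [CharP K l] {p : ℕ} [hp : Fact p.Prime]
  {M : Ideal AlgInt}

/-- the dual polar scheme and the inessential colours -/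
structure DPHyp (p f : ℕ) {V : Type v} [AddCommGroup V] [Module K V] (F : CForm K V) (m t : ℕ) : Prop where
  ne : Nonempty (F.Om m)
  dp : letI := omAct F m
    DP F.iso (F.Om m) (omD F m) m (Nat.card K) (Nat.card K ^ t)
  ines : letI := omAct F m
    Ines1 p f F.iso (omD F m)

/-- **the general form** -/
theorem box_of {V : Type v} [AddCommGroup V] [Module K V] {F : CForm K V} {X : Type w} [AddCommGroup X] [Module K X]
    {F' : CForm K X} {j : X →ₗ[K] V} {W₀ : Submodule K V} [Finite V] [Finite X] (hC : Cmp F F' j W₀)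
    (hp2 : p ≠ 2) (hlp : l ≠ p) (hM : IsPModular p M) {f : ℕ} (hf : orderOf ((Nat.card K : ℕ) : ZMod p) = f)
    (hodd : Odd f) (hW₀ : W₀ ∈ F.Om f) (hidx : ¬ p ∣ Nat.card (F.Om f)) {c : IrrCharacter (GL (Fin f) K)}
    (hc : RhoGL p M K F.σ f c) {m t : ℕ} (hD : DPHyp p f F' m t) (h1 : p ≤ m / f) (h2 : m / f < p * p)
    (h3 : (m / f) % p ≠ p - 1) : Box p M F := by
  have : FiniteDimensional K V := Module.Finite.of_finite
  have : FiniteDimensional K X := Module.Finite.of_finite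
  let _ := omAct F' m
  have := hD.ne
  have : Finite (F'.Om m) := Subtype.finite
  exact exists_linear hC hp2 hlp hM hf hodd hW₀ hidx hc (polSet_Om F' m) hD.dp hD.ines h1 h2 h3

omit [Finite K] in
theorem weight_arith {f n : ℕ} (hf : 0 < f) (hW : (f + n) / f % p = p - 1) (h1 : p ≤ (f + n) / f)
    (h2 : (f + n) / f < p * p) : ¬ p ∣ (f + n) / f ∧ p ≤ n / f ∧ n / f < p * p ∧ (n / f) % p ≠ p - 1 := by
  have hp2 := hp.out.two_le
  have e : (f + n) / f = n / f + 1 := by rw [add_comm, Nat.add_div_right _ hf]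
  rw [e] at hW h1 h2 ⊢
  refine ⟨fun h => ?_, ?_, by omega, fun h => ?_⟩
  · rw [Nat.mod_eq_zero_of_dvd h] at hW
    omega
  · by_contra h
    have h3 : n / f + 1 = p := by omega
    rw [h3, Nat.mod_self] at hW
    omega
  · rw [Nat.add_mod, h, Nat.mod_eq_of_lt (a := 1) (by omega), Nat.sub_add_cancel (by omega), Nat.mod_self] at hW
    omega

variable (hp2 : p ≠ 2) (hlp : l ≠ p) (hM : IsPModular p M) {f n : ℕ}
  (hf : orderOf ((Nat.card K : ℕ) : ZMod p) = f) (hodd : Odd f) (hW : (f + n) / f % p = p - 1)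
  (h1 : p ≤ (f + n) / f) (h2 : (f + n) / f < p * p) {c : IrrCharacter (GL (Fin f) K)}
  (hc : RhoGL p M K (RingHom.id K) f c)

include hp2 hlp hM hf hodd hW h1 h2 hc

theorem spF_box (hD : DPHyp p f (spF K n) n 1) : Box p M (spF K (f + n)) := by
  obtain ⟨a1, a2, a3, a4⟩ := weight_arith hodd.pos hW h1 h2
  obtain ⟨W₀, hW₀, hC⟩ := spF_cmp K f n
  exact box_of hC hp2 hlp hM hf hodd hW₀ (H674.HT.sp_Om_ndvd K hp2 hlp.symm hf hodd a1) hc hD a2 a3 a4

theorem plusF_box (hD : DPHyp p f (plusF K n) n 0) : Box p M (plusF K (f + n)) := by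
  obtain ⟨a1, a2, a3, a4⟩ := weight_arith hodd.pos hW h1 h2
  obtain ⟨W₀, hW₀, hC⟩ := plusF_cmp K f n
  exact box_of hC hp2 hlp hM hf hodd hW₀ (H674.HT.plus_Om_ndvd K hp2 hlp.symm hf hodd a1) hc hD a2 a3 a4

theorem oddF_box (hK : (2 : K) ≠ 0) (hKo : Odd (Nat.card K)) (hD : DPHyp p f (oddF K n hK) n 1) :
    Box p M (oddF K (f + n) hK) := by
  obtain ⟨a1, a2, a3, a4⟩ := weight_arith hodd.pos hW h1 h2
  obtain ⟨W₀, hW₀, hC⟩ := oddF_cmp K hK f n
  exact box_of hC hp2 hlp hM hf hodd hW₀ (H674.HT.odd_Om_ndvd K hp2 hlp.symm hf hodd hK hKo a1) hc hD a2 a3 a4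

theorem minusF_box {a b : K} (hab : ∀ z₁ z₂ : K, z₁ ^ 2 + a * z₁ * z₂ + b * z₂ ^ 2 = 0 → z₁ = 0 ∧ z₂ = 0)
    (hD : DPHyp p f (minusF K n a b hab) n 2) : Box p M (minusF K (f + n) a b hab) := by
  obtain ⟨a1, a2, a3, a4⟩ := weight_arith hodd.pos hW h1 h2
  obtain ⟨W₀, hW₀, hC⟩ := minusF_cmp K hab f n
  exact box_of hC hp2 hlp hM hf hodd hW₀ (H674.HT.minus_Om_ndvd K hp2 hlp.symm hf hodd hab a1) hc hD a2 a3 a4

end models

end Cfsg.Agent.H139.HT
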