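import Cfsg.Agent.H139.HT.RhoOdd
import Cfsg.Agent.H674.HT.RhoOne

/-!
# S4933 (helper139): invariance of `psi L θ` under the field automorphisms of `p`-power order, `θ` of order `p`

`exists_rhoGL` : the input `RhoGL` for `f = ord_p(q)` odd.
-/

set_option autoImplicit false

open scoped ComplexConjugate
open Cfsg

namespace Cfsg.Agent.H139.HT

open Cfsg.Agent.OddOrderCharacters.Clifford Cfsg.Agent.Characters Module Cfsg.Agent.H53.HC
open Cfsg.Agent.H477.HC Cfsg.Agent.H551.HT Cfsg.Agent.H139.Cusp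

universe u v w

/-- an automorphism of a finite field is a power of the Frobenius -/
theorem exists_frob_exp {F : Type u} [Field F] [Finite F] {r : ℕ} [Fact r.Prime] [CharP F r] (τ : F ≃+* F) :
    ∃ a : ℕ, ∀ x, τ x = x ^ r ^ a := by
  let _ : Algebra (ZMod r) F := ZMod.algebra F r
  have : Fintype F := Fintype.ofFinite F
  let τ' : F ≃ₐ[ZMod r] F := AlgEquiv.ofRingEquiv (f := τ) fun x => by
    rw [← ZMod.natCast_zmod_val x, map_natCast, map_natCast]
  obtain ⟨n, hn⟩ := (FiniteField.bijective_frobeniusAlgEquivOfAlgebraic_pow (ZMod r) F).2 τ'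
  refine ⟨n.1, fun x => ?_⟩
  have h1 : ∀ (m : ℕ) (x : F), ((FiniteField.frobeniusAlgEquivOfAlgebraic (ZMod r) F) ^ m) x = x ^ r ^ m := by
    intro m
    induction m with
    | zero => intro x; rw [pow_zero, pow_zero, pow_one]; rfl
    | succ m ih =>
      intro x
      rw [pow_succ, AlgEquiv.mul_apply, ih]
      show (x ^ Fintype.card (ZMod r)) ^ r ^ m = _
      rw [ZMod.card, ← pow_mul, ← pow_succ']
  rw [← h1, ← show τ' x = τ x from rfl, ← hn]

variable {F : Type u} [Field F] [Finite F] {L : Type w} [Field L] [Finite L] [Algebra F L] {θ : L →*₀ ℂ}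
  {p f : ℕ} [hp : Fact p.Prime]

omit [Finite L] in
/-- the arithmetic: `θ (x ^ (r ^ a)) = θ (x ^ (q ^ j))` -/
theorem exists_exp (h : IsPTheta F p 1 θ) {r : ℕ} [Fact r.Prime] [CharP F r] {τ : F ≃+* F} {a k : ℕ}
    (ha : ∀ x, τ x = x ^ r ^ a) (hτ : τ ^ p ^ k = 1) : ∃ j : ℕ, ∀ x : L, θ (x ^ r ^ a) = θ (x ^ Nat.card F ^ j) := by
  classical
  have hrp : r.Prime := Fact.out
  obtain ⟨e, he⟩ : ∃ e, Nat.card F = r ^ e := by
    have : Fintype F := Fintype.ofFinite F
    obtain ⟨m, -, hm⟩ := FiniteField.card F r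
    exact ⟨m, by rw [Nat.card_eq_fintype_card, hm]⟩
  have hq : 1 < Nat.card F := Finite.one_lt_card
  have he0 : 0 < e := by
    rcases Nat.eq_zero_or_pos e with h0 | h0
    · rw [he, h0, pow_zero] at hq
      exact absurd hq (lt_irrefl _)
    · exact h0
  -- `τ ^ n = x ↦ x ^ (r ^ (a n))`
  have h1 : ∀ (n : ℕ) (x : F), (τ ^ n) x = x ^ r ^ (a * n) := by
    intro n
    induction n with
    | zero => intro x; rw [pow_zero, mul_zero, pow_zero, pow_one]; rfl
    | succ n ih =>
      intro x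
      rw [pow_succ, RingAut.mul_apply, ih, ha, ← pow_mul, ← pow_add]
      congr 2
      ring
  -- `e ∣ a p ^ k`
  have h2 : e ∣ a * p ^ k := by
    obtain ⟨γ, hγ⟩ := IsCyclic.exists_ofOrder_eq_natCard (α := Fˣ)
    have h3 := h1 (p ^ k) (γ : F)
    rw [hτ] at h3
    have h4 : γ ^ (r ^ (a * p ^ k) - 1) = 1 := by
      have h5 : γ ^ r ^ (a * p ^ k) = γ := Units.ext (by
        rw [Units.val_pow_eq_pow_val, ← h3]; rfl)
      have h6 : 1 ≤ r ^ (a * p ^ k) := Nat.one_le_pow _ _ hrp.pos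
      rw [← mul_left_inj γ, ← pow_succ, Nat.sub_add_cancel h6, one_mul, h5]
    have h5 := orderOf_dvd_of_pow_eq_one h4
    rw [hγ, Nat.card_units, he] at h5
    have h6 := Nat.pow_sub_one_gcd_pow_sub_one r e (a * p ^ k)
    rw [Nat.gcd_eq_left h5] at h6
    have h7 : 1 ≤ r ^ e := Nat.one_le_pow _ _ hrp.pos
    have h8 : 1 ≤ r ^ Nat.gcd e (a * p ^ k) := Nat.one_le_pow _ _ hrp.pos
    have h9 : e = Nat.gcd e (a * p ^ k) := Nat.pow_right_injective hrp.two_le (by
      show r ^ e = r ^ Nat.gcd e (a * p ^ k)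
      omega)
    exact h9 ▸ Nat.gcd_dvd_right e (a * p ^ k)
  obtain ⟨j, hj⟩ := h2
  refine ⟨j, fun x => ?_⟩
  by_cases hx : x = 0
  · rw [hx, zero_pow (pow_pos hrp.pos _).ne', zero_pow (pow_pos (by omega) _).ne']
  rw [map_pow, map_pow]
  have h3 : θ x ^ p = 1 := by
    have := h.pow x hx
    rwa [pow_one] at this
  apply pow_eq_pow_of_modEq _ h3
  have h4 : ((r ^ a : ℕ) : ZMod p) = ((Nat.card F ^ j : ℕ) : ZMod p) := by
    rw [he, ← pow_mul, ← hj, pow_mul]
    push_cast
    rw [ZMod.pow_card_pow]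
  exact (ZMod.natCast_eq_natCast_iff _ _ _).1 h4

/-- **Invariance** -/
theorem psi_field (h : IsPTheta F p 1 θ) (hn : Module.finrank F L = f) (τ : F ≃+* F) (hτ : ∃ k, τ ^ p ^ k = 1)
    (A : GL (Fin f) F) : psi L θ (Matrix.GeneralLinearGroup.map (τ : F →+* F) A) = psi L θ A := by
  classical
  obtain ⟨k, hτ⟩ := hτ
  obtain ⟨r, hr⟩ := CharP.exists F
  have hrp : r.Prime := CharP.char_is_prime F r
  have : Fact r.Prime := ⟨hrp⟩
  have : CharP L r := charP_of_injective_algebraMap (algebraMap F L).injective r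
  obtain ⟨a, ha⟩ := exists_frob_exp (r := r) τ
  obtain ⟨j, hj⟩ := exists_exp h ha hτ
  have hV : Module.finrank F (Fin f → F) = Module.finrank F L := by rw [Module.finrank_fin_fun, hn]
  obtain ⟨τ', hτ'⟩ : ∃ τ' : L ≃+* L, ∀ x, τ' x = x ^ r ^ a :=
    ⟨iterateFrobeniusEquiv L r a, fun x => iterateFrobenius_def r a x⟩
  obtain ⟨θ', hθ'⟩ : ∃ θ' : L →*₀ ℂ, ∀ x, θ' (τ' x) = θ x :=
    ⟨{ toFun := fun x => θ (τ'.symm x)
       map_zero' := by rw [map_zero, map_zero]
       map_one' := by rw [map_one, map_one]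
       map_mul' := fun x y => by rw [map_mul, map_mul] }, fun x => by
      show θ (τ'.symm (τ' x)) = θ x
      rw [τ'.symm_apply_apply]⟩
  let e : (Fin f → F) ≃+ (Fin f → F) := AddEquiv.piCongrRight fun _ => τ.toAddEquiv
  have h1 : cusp L θ' (Matrix.toLin' ((Matrix.GeneralLinearGroup.map (τ : F →+* F) A : GL (Fin f) F) :
      Matrix (Fin f) (Fin f) F)) = cusp L θ (Matrix.toLin' (A : Matrix (Fin f) (Fin f) F)) := by
    refine cusp_semilinear τ e (fun c v => ?_) (fun v => ?_) τ' (fun c => ?_) hθ' hV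
    · funext i
      show τ (c * v i) = τ c * τ (v i)
      rw [map_mul]
    · funext i
      show (Matrix.toLin' _) (e v) i = τ ((Matrix.toLin' _) v i)
      rw [Matrix.toLin'_apply, Matrix.toLin'_apply, Matrix.mulVec, Matrix.mulVec, dotProduct, dotProduct, map_sum]
      refine Finset.sum_congr rfl fun l _ => ?_
      rw [map_mul]
      rfl
    · rw [hτ', ha, map_pow]
  have h2 : ∀ y, θ y = θ' (y ^ Nat.card F ^ j) := by
    intro y
    obtain ⟨x, rfl⟩ := τ'.surjective y
    rw [← map_pow, hθ', ← hj, hτ']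
  have hn0 : 0 < Module.finrank F L := Module.finrank_pos
  have hfin : ∀ y : L, y ^ Nat.card F ^ Module.finrank F L = y := by
    intro y
    have h3 : Nat.card L = Nat.card F ^ Module.finrank F L := Module.natCard_eq_pow_finrank
    rw [← h3]
    have : Fintype L := Fintype.ofFinite L
    rw [Nat.card_eq_fintype_card, FiniteField.pow_card]
  have hmul : ∀ (m : ℕ) (y : L), y ^ Nat.card F ^ (Module.finrank F L * m) = y := by
    intro m
    induction m with
    | zero => intro y; rw [mul_zero, pow_zero, pow_one]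
    | succ m ih => intro y; rw [mul_add, mul_one, pow_add, pow_mul, ih, hfin]
  obtain ⟨j', hj'⟩ : ∃ j' : ℕ, ∀ y, θ' y = θ (y ^ Nat.card F ^ j') := by
    refine ⟨(Module.finrank F L - 1) * j, fun y => ?_⟩
    rw [h2 (y ^ _), ← pow_mul, ← pow_add]
    have h3 : (Module.finrank F L - 1) * j + j = Module.finrank F L * j := by
      obtain ⟨n', hn'⟩ : ∃ n', Module.finrank F L = n' + 1 := ⟨_, (Nat.sub_add_cancel hn0).symm⟩
      rw [hn', Nat.add_sub_cancel]
      ring
    rw [h3, hmul]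
  have h4 : ∀ y, θ' y = θ (y ^ Nat.card F ^ (j' % Module.finrank F L)) := by
    intro y
    rw [hj']
    congr 1
    conv_lhs => rw [← Nat.div_add_mod j' (Module.finrank F L), pow_add, pow_mul, hmul]
  have h5 := (cusp_eq_iff θ θ' hV h.regular).2 ⟨j' % Module.finrank F L, Nat.mod_lt _ hn0, h4⟩
  have h6 : ∀ B : GL (Fin f) F, psi L θ B = psi L θ' B := fun B => h5 (Matrix.GeneralLinearGroup.toLin B)
  exact (h6 _).trans h1

/-- **the input `RhoGL`**, `f = ord_p(q)` odd -/
theorem exists_rhoGL (K : Type u) [Field K] [Finite K] {p : ℕ} [Fact p.Prime] {M : Ideal AlgInt} (hp2 : p ≠ 2)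
    (hM : IsPModular p M) {f : ℕ} (hf : orderOf ((Nat.card K : ℕ) : ZMod p) = f) (hodd : Odd f)
    (hpK : ¬ p ∣ Nat.card K) : ∃ c : IrrCharacter (GL (Fin f) K), RhoGL p M K (RingHom.id K) f c := by
  have hp : p.Prime := Fact.out
  rcases Nat.lt_or_ge f 2 with h2 | h2
  · have h1 : f = 1 := by
      have := hodd.pos
      omega
    subst h1
    exact H674.HT.exists_rhoGL_one K hp2 hM hf
  · have hf0 : f ≠ 0 := by omega
    obtain ⟨r, hr⟩ := CharP.exists K
    have hrp : r.Prime := CharP.char_is_prime K r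
    have : Fact r.Prime := ⟨hrp⟩
    have : NeZero f := ⟨hf0⟩
    let L := FiniteField.Extension K r f
    have hL : Module.finrank K L = f := FiniteField.finrank_extension K r f
    obtain ⟨θ, hθ⟩ := exists_theta_p K L hpK (hf.trans hL.symm)
    exact ⟨_, rhoGL_of hθ hL h2 hp2 hodd hM fun τ hτ A => psi_field hθ hL τ hτ A⟩

end Cfsg.Agent.H139.HT
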