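import Cfsg.Agent.H139.HT.Lin
import Cfsg.Agent.H551.HT.Rho

/-!
# S4933 (helper139): the input `RhoGL` from `GL_f`, `f ≥ 3` odd
-/

set_option autoImplicit false

open scoped ComplexConjugate
open Cfsg

namespace Cfsg.Agent.H139.HT

open Cfsg.Agent.OddOrderCharacters.Clifford Cfsg.Agent.Characters Module Cfsg.Agent.H53.HC
open Cfsg.Agent.H477.HC Cfsg.Agent.H551.HT Cfsg.Agent.H139.Cusp

universe u v w

variable {F : Type u} [Field F] [Finite F] {L : Type w} [Field L] [Finite L] [Algebra F L] {θ : L →*₀ ℂ}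
  {p k f : ℕ} [hp : Fact p.Prime]

omit [Finite L] in
/-- `psi` and the inverse transpose -/
theorem psi_invT (g : GL (Fin f) F) : psi L θ (invT f g) = psi L θ g⁻¹ := by
  show cuspMat L θ (((g⁻¹ : GL (Fin f) F) : Matrix (Fin f) (Fin f) F)).transpose = _
  rw [cuspMat_transpose]
  rfl

/-- **the input from `GL_f`**, `f` odd, `f ≠ 1` -/
theorem rhoGL_of (h : IsPTheta F p k θ) (hn : Module.finrank F L = f) (h2 : 2 ≤ f) (hp2 : p ≠ 2) (hodd : Odd f)
    {M : Ideal AlgInt} (hM : IsPModular p M)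
    (hinv : ∀ τ : F ≃+* F, (∃ k, τ ^ p ^ k = 1) → ∀ A : GL (Fin f) F,
      psi L θ (Matrix.GeneralLinearGroup.map (τ : F →+* F) A) = psi L θ A) :
    RhoGL p M F (RingHom.id F) f (⟨psi L θ, h.psi_isIrr hn⟩ : IrrCharacter (GL (Fin f) F)) where
  cusp := psi_isCusp L θ
  mem := h.psi_mem_principalBlock hn h2 hM
  inv := hinv
  deg := by
    intro hd
    obtain ⟨h3, h4⟩ := h.psi_one hn
    apply h4
    have h5 : charDegree (psi L θ : GL (Fin f) F → ℂ) = degP (Nat.card F) f := Blocks.Basic.charDegree_of_eq h3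
    rw [← h5]
    exact hd
  dual := by
    classical
    intro he
    have hV : Module.finrank F (Fin f → F) = Module.finrank F L := by rw [Module.finrank_fin_fun, hn]
    have hfe : Finite ((Fin f → F) →ₗ[F] (Fin f → F)) := DFunLike.finite _
    have hft : Fintype ((Fin f → F) →ₗ[F] (Fin f → F))ˣ := Fintype.ofFinite _
    have h3 := h.inner_odd hV hp2 (hn ▸ hodd)
    have h4 : (fun g : ((Fin f → F) →ₗ[F] (Fin f → F))ˣ => cusp L θ ((g⁻¹ : ((Fin f → F) →ₗ[F] (Fin f → F))ˣ) :
        (Fin f → F) →ₗ[F] (Fin f → F))) =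
        fun g : ((Fin f → F) →ₗ[F] (Fin f → F))ˣ => cusp L θ (g : (Fin f → F) →ₗ[F] (Fin f → F)) := by
      funext g
      obtain ⟨A, rfl⟩ := (Matrix.GeneralLinearGroup.toLin : GL (Fin f) F ≃* _).surjective g
      have h5 := congrFun he A
      have h6 : (Matrix.GeneralLinearGroup.map (RingHom.id F)) (invT f A) = invT f A := by
        ext i j
        rfl
      change psi L θ ((Matrix.GeneralLinearGroup.map (RingHom.id F)) (invT f A)) = psi L θ A at h5
      rw [h6, psi_invT] at h5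
      rw [← map_inv]
      exact h5
    rw [h4, Core.classInner_irr_self (h.isIrr hV)] at h3
    exact one_ne_zero h3

end Cfsg.Agent.H139.HT
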